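import Mathlib

/-!
Small pushing up with a dihedral quotient: the standing setup, Sylow structure, elementary lemmas.
-/

set_option autoImplicit false

namespace CfsgLib.PushUp.SmallDih

variable {G : Type*} [Group G]

/-- conjugation -/
def cj (g v : G) : G := g * v * g⁻¹

theorem cj_mul (g h v : G) : cj (g * h) v = cj g (cj h v) := by simp [cj, mul_assoc]
theorem cj_mul' (g v w : G) : cj g (v * w) = cj g v * cj g w := by simp [cj, mul_assoc]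
@[simp] theorem cj_one (v : G) : cj 1 v = v := by simp [cj]
@[simp] theorem cj_one' (g : G) : cj g 1 = 1 := by simp [cj]
theorem cj_inv' (g v : G) : cj g v⁻¹ = (cj g v)⁻¹ := by simp [cj, mul_assoc]
@[simp] theorem cj_inv_cj (g v : G) : cj g⁻¹ (cj g v) = v := by simp [cj, mul_assoc]
@[simp] theorem cj_cj_inv (g v : G) : cj g (cj g⁻¹ v) = v := by simp [cj, mul_assoc]
theorem cj_eq_self {g v : G} : cj g v = v ↔ g * v = v * g := by
  rw [cj, mul_inv_eq_iff_eq_mul]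
theorem cj_injective (g : G) : Function.Injective (cj g) := fun a b h => by
  simpa [cj] using h

/-- an odd-order element whose square fixes `v` fixes `v` -/
theorem fix_of_sq {x v : G} {n : ℕ} (hn : Odd n) (hx : x ^ n = 1) (h : cj (x * x) v = v) :
    cj x v = v := by
  obtain ⟨k, rfl⟩ := hn
  rw [cj_eq_self] at h ⊢
  have hc : Commute (x * x) v := h
  have : Commute ((x * x) ^ (k + 1)) v := hc.pow_left _
  have e : (x * x) ^ (k + 1) = x := by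
    rw [← pow_two, ← pow_mul, show 2 * (k + 1) = (2 * k + 1) + 1 by ring, pow_succ, hx, one_mul]
  rwa [e] at this

theorem cj_pow_of_fix {x v : G} (h : cj x v = v) (i : ℕ) : cj (x ^ i) v = v :=
  cj_eq_self.mpr ((Commute.pow_left (cj_eq_self.mp h : Commute x v)) i)

/-- The standing setup. -/
structure Setup (G : Type*) [Group G] where
  H : Subgroup G
  P : Subgroup G
  Q : Subgroup G
  y : G
  x : G
  n : ℕ
  n_odd : Odd n
  QP : Q ≤ P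
  PH : P ≤ H
  xH : x ∈ H
  x_pow : x ^ n = 1
  Qn : ∀ h ∈ H, ∀ q ∈ Q, cj h q ∈ Q
  dich : ∀ h ∈ H, ∃ i : ℕ, ∃ p ∈ P, h = x ^ i * p
  idx : ∀ a ∈ P, ∀ b ∈ P, a ∉ Q → b ∉ Q → a * b ∈ Q
  inv : ∀ t ∈ P, t ∉ Q → t * x * t⁻¹ * x ∈ Q
  yP : ∀ p ∈ P, cj y p ∈ P
  y2 : ∃ p ∈ P, ∀ z ∈ P, cj y (cj y z) = cj p z
  core : ∀ X : Subgroup G, X ≤ P → (∀ h ∈ H, ∀ z ∈ X, cj h z ∈ X) → (∀ z ∈ X, cj y z ∈ X) → X = ⊥
  Qne : Q ≠ ⊥
  outside : ∃ t ∈ P, t ∉ Q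
  P2 : IsPGroup 2 P

namespace Setup

variable (S : Setup G)

theorem Qn' {p : G} (hp : p ∈ S.P) {q : G} (hq : q ∈ S.Q) : cj p q ∈ S.Q := S.Qn p (S.PH hp) q hq

theorem PcjP {p : G} (hp : p ∈ S.P) {z : G} (hz : z ∈ S.P) : cj p z ∈ S.P :=
  S.P.mul_mem (S.P.mul_mem hp hz) (S.P.inv_mem hp)

theorem QH : S.Q ≤ S.H := le_trans S.QP S.PH

/-- `y⁻¹` acts on `P` as `y` composed with an inner automorphism -/
theorem yinv_formula : ∃ p ∈ S.P, ∀ z ∈ S.P, cj S.y⁻¹ z = cj S.y (cj p z) := by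
  obtain ⟨p, hp, h⟩ := S.y2
  refine ⟨p⁻¹, S.P.inv_mem hp, fun z hz => ?_⟩
  have h1 := h (cj p⁻¹ z) (S.PcjP (S.P.inv_mem hp) hz)
  rw [cj_cj_inv] at h1
  conv_lhs => rw [← h1]
  rw [cj_inv_cj]

/-- the two elements `y`, `y⁻¹` -/
def IsE (e : G) : Prop := e = S.y ∨ e = S.y⁻¹

theorem isE_y : S.IsE S.y := Or.inl rfl
theorem isE_yinv : S.IsE S.y⁻¹ := Or.inr rfl

theorem IsE.inv {e : G} (he : S.IsE e) : S.IsE e⁻¹ := by
  rcases he with rfl | rfl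
  · exact S.isE_yinv
  · rw [inv_inv]; exact S.isE_y

theorem eP {e : G} (he : S.IsE e) {z : G} (hz : z ∈ S.P) : cj e z ∈ S.P := by
  rcases he with rfl | rfl
  · exact S.yP z hz
  · obtain ⟨p, hp, h⟩ := S.yinv_formula
    rw [h z hz]
    exact S.yP _ (S.PcjP hp hz)

theorem eP_iff {e : G} (he : S.IsE e) {z : G} : cj e z ∈ S.P ↔ z ∈ S.P :=
  ⟨fun h => by simpa using S.eP (IsE.inv S he) h, S.eP he⟩

/-- `Q'` : the conjugate of `Q` under `y` -/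
def Q1 : Subgroup G := S.Q.map (MulAut.conj S.y).toMonoidHom

theorem mem_Q1 {z : G} : z ∈ S.Q1 ↔ cj S.y⁻¹ z ∈ S.Q := by
  simp only [Q1, Subgroup.mem_map_equiv, MulAut.conj_symm_apply, cj, inv_inv]

theorem cjy_mem_Q1 {z : G} : cj S.y z ∈ S.Q1 ↔ z ∈ S.Q := by
  rw [S.mem_Q1, cj_inv_cj]

theorem Q1P : S.Q1 ≤ S.P := fun z hz => by
  rw [S.mem_Q1] at hz
  exact (S.eP_iff S.isE_yinv).mp (S.QP hz)

theorem e_mem_Q1_iff {e : G} (he : S.IsE e) {z : G} : cj e z ∈ S.Q1 ↔ z ∈ S.Q := by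
  rcases he with rfl | rfl
  · exact S.cjy_mem_Q1
  · obtain ⟨p, hp, h⟩ := S.yinv_formula
    constructor
    · intro hz
      have hzP : z ∈ S.P := (S.eP_iff S.isE_yinv).mp (S.Q1P hz)
      rw [h z hzP, S.cjy_mem_Q1] at hz
      simpa using S.Qn' (S.P.inv_mem hp) hz
    · intro hz
      rw [h z (S.QP hz), S.cjy_mem_Q1]
      exact S.Qn' hp hz

theorem e_mem_Q_iff {e : G} (he : S.IsE e) {z : G} : cj e z ∈ S.Q ↔ z ∈ S.Q1 := by
  have := S.e_mem_Q1_iff (IsE.inv S he) (z := cj e z)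
  rw [cj_inv_cj] at this
  exact this.symm

theorem idx' {a b : G} (ha : a ∈ S.P) (hb : b ∈ S.P) (haQ : a ∉ S.Q1) (hbQ : b ∉ S.Q1) :
    a * b ∈ S.Q1 := by
  have h1 := S.idx (cj S.y a) (S.yP a ha) (cj S.y b) (S.yP b hb)
    (fun h => haQ ((S.e_mem_Q_iff S.isE_y).mp h)) (fun h => hbQ ((S.e_mem_Q_iff S.isE_y).mp h))
  rw [← cj_mul'] at h1
  exact (S.e_mem_Q_iff S.isE_y).mp h1

theorem Q1n {p : G} (hp : p ∈ S.P) {z : G} (hz : z ∈ S.Q1) : cj p z ∈ S.Q1 := by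
  have hz' := (S.e_mem_Q_iff S.isE_y).mpr hz
  refine (S.e_mem_Q_iff S.isE_y).mp ?_
  have e : cj S.y (cj p z) = cj (cj S.y p) (cj S.y z) := by simp [cj, mul_assoc]
  rw [e]
  exact S.Qn' (S.yP p hp) hz'

/-- `Q` is not `y`-invariant -/
theorem exists_y_not_mem : ∃ q ∈ S.Q, cj S.y q ∉ S.Q := by
  by_contra h
  push Not at h
  exact S.Qne (S.core S.Q S.QP S.Qn h)

theorem exists_Q1_not_Q : ∃ t ∈ S.Q1, t ∉ S.Q := by
  obtain ⟨q, hq, h⟩ := S.exists_y_not_mem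
  exact ⟨_, S.cjy_mem_Q1.mpr hq, h⟩

theorem exists_Q_not_Q1 : ∃ t ∈ S.Q, t ∉ S.Q1 := by
  obtain ⟨t, ht, h⟩ := S.exists_Q1_not_Q
  exact ⟨cj S.y t, (S.e_mem_Q_iff S.isE_y).mpr ht, fun h' => h (S.cjy_mem_Q1.mp h')⟩

theorem mem_Q_of_sq {t : G} (ht : t ∈ S.P) : t * t ∈ S.Q := by
  by_cases h : t ∈ S.Q
  · exact S.Q.mul_mem h h
  · exact S.idx t ht t ht h h

/-- for `t ∈ P \ Q`, the product of `t` and its `x`-conjugate is `x⁻²` modulo `Q` -/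
theorem prod_conj {t : G} (ht : t ∈ S.P) (htQ : t ∉ S.Q) :
    ∃ q ∈ S.Q, t * cj S.x t = q * (S.x⁻¹ * S.x⁻¹) := by
  refine ⟨(t * S.x * t⁻¹ * S.x) * cj S.x⁻¹ (t * t),
    S.Q.mul_mem (S.inv t ht htQ) (S.Qn _ (S.H.inv_mem S.xH) _ (S.mem_Q_of_sq ht)), ?_⟩
  simp [cj, mul_assoc]

/-- `P` is generated by `Q` and any `t ∈ P \ Q` -/
theorem P_le {t : G} (ht : t ∈ S.P) (htQ : t ∉ S.Q) (K : Subgroup G)
    (hQK : ∀ q ∈ S.Q, q ∈ K) (htK : t ∈ K) : S.P ≤ K := by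
  intro p hp
  by_cases h : p ∈ S.Q
  · exact hQK p h
  · have := K.mul_mem (hQK _ (S.idx p hp t ht h htQ)) (K.inv_mem htK)
    simpa using this

/-- generation of `H` -/
theorem gen {t : G} (ht : t ∈ S.P) (htQ : t ∉ S.Q) (K : Subgroup G)
    (hQK : ∀ q ∈ S.Q, q ∈ K) (htK : t ∈ K) (hxt : cj S.x t ∈ K) : S.H ≤ K := by
  obtain ⟨q, hq, e⟩ := S.prod_conj ht htQ
  have hxx : (S.x⁻¹ * S.x⁻¹) ∈ K := by
    have := K.mul_mem (K.inv_mem (hQK q hq)) (K.mul_mem htK hxt)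
    rwa [e, inv_mul_cancel_left] at this
  obtain ⟨k, hk⟩ := S.n_odd
  have hxK : S.x ∈ K := by
    have h2 := K.pow_mem (K.inv_mem hxx) (k + 1)
    have e2 : (S.x⁻¹ * S.x⁻¹)⁻¹ ^ (k + 1) = S.x := by
      rw [mul_inv_rev, inv_inv, ← pow_two, ← pow_mul,
        show 2 * (k + 1) = (2 * k + 1) + 1 by ring, pow_succ, ← hk, S.x_pow, one_mul]
    rwa [e2] at h2
  intro h hh
  obtain ⟨i, p, hp, rfl⟩ := S.dich h hh
  exact K.mul_mem (K.pow_mem hxK i) (S.P_le ht htQ K hQK htK hp)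

theorem commute_H_of {t : G} (ht : t ∈ S.P) (htQ : t ∉ S.Q) {z : G}
    (hQ : ∀ q ∈ S.Q, q * z = z * q) (h1 : t * z = z * t) (h2 : cj S.x t * z = z * cj S.x t)
    {h : G} (hh : h ∈ S.H) : h * z = z * h := by
  have := S.gen ht htQ (Subgroup.centralizer {z})
    (fun q hq => Subgroup.mem_centralizer_singleton_iff.mpr (hQ q hq))
    (Subgroup.mem_centralizer_singleton_iff.mpr h1)
    (Subgroup.mem_centralizer_singleton_iff.mpr h2) hh
  exact Subgroup.mem_centralizer_singleton_iff.mp this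

/-- `z` is central in `P` -/
def InZP (z : G) : Prop := z ∈ S.P ∧ ∀ p ∈ S.P, p * z = z * p

/-- `Ω₁(Z(P))` -/
def Om : Subgroup G where
  carrier := {z | S.InZP z ∧ z * z = 1}
  one_mem' := ⟨⟨S.P.one_mem, fun p _ => by simp⟩, by simp⟩
  mul_mem' := by
    rintro a b ⟨⟨ha, ha'⟩, ha2⟩ ⟨⟨hb, hb'⟩, hb2⟩
    refine ⟨⟨S.P.mul_mem ha hb, fun p hp => ?_⟩, ?_⟩
    · rw [← mul_assoc, ha' p hp, mul_assoc, hb' p hp, mul_assoc]
    · rw [mul_assoc, ← mul_assoc b a b, ha' b hb, mul_assoc a b b, hb2, mul_one, ha2]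
  inv_mem' := by
    rintro a ⟨⟨ha, ha'⟩, ha2⟩
    have e : a⁻¹ = a := inv_eq_of_mul_eq_one_right ha2
    rw [e]
    exact ⟨⟨ha, ha'⟩, ha2⟩

theorem Om_le : S.Om ≤ S.P := fun _ hz => hz.1.1

theorem e_InZP {e : G} (he : S.IsE e) {z : G} (hz : S.InZP z) : S.InZP (cj e z) := by
  refine ⟨S.eP he hz.1, fun p hp => ?_⟩
  have h1 := hz.2 _ (S.eP (IsE.inv S he) hp)
  have h2 := congrArg (cj e) h1
  simpa [cj_mul'] using h2

theorem e_Om {e : G} (he : S.IsE e) {z : G} (hz : z ∈ S.Om) : cj e z ∈ S.Om :=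
  ⟨S.e_InZP he hz.1, by rw [← cj_mul', hz.2, cj_one']⟩

theorem cjy_cjy_Om {z : G} (hz : S.InZP z) : cj S.y (cj S.y z) = z := by
  obtain ⟨p, hp, h⟩ := S.y2
  rw [h z hz.1, cj_eq_self]
  exact hz.2 p hp

theorem e_eq_y_Om {e : G} (he : S.IsE e) {z : G} (hz : S.InZP z) : cj e z = cj S.y z := by
  rcases he with rfl | rfl
  · rfl
  · conv_lhs => rw [← S.cjy_cjy_Om hz, cj_inv_cj]

theorem Om_ne_bot [Finite G] : S.Om ≠ ⊥ := by
  have : Fact (Nat.Prime 2) := ⟨Nat.prime_two⟩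
  have : Nontrivial S.P := by
    obtain ⟨t, ht, htQ⟩ := S.outside
    exact ⟨⟨⟨t, ht⟩, 1, fun h => htQ (by
      have : t = 1 := congrArg Subtype.val h
      exact this ▸ S.Q.one_mem)⟩⟩
  obtain ⟨k, hk⟩ := (IsPGroup.iff_card.mp (S.P2.to_subgroup (Subgroup.center S.P)))
  have hk0 : k ≠ 0 := by
    rintro rfl
    have := S.P2.center_nontrivial
    rw [pow_zero] at hk
    exact (Finite.one_lt_card (α := Subgroup.center S.P)).ne' hk
  obtain ⟨z, hz⟩ := exists_prime_orderOf_dvd_card' 2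
    (show 2 ∣ Nat.card (Subgroup.center S.P) by rw [hk]; exact dvd_pow_self 2 hk0)
  intro h
  have hmem : ((z : S.P) : G) ∈ S.Om := by
    refine ⟨⟨z.1.2, fun p hp => ?_⟩, ?_⟩
    · exact congrArg Subtype.val (Subgroup.mem_center_iff.mp z.2 ⟨p, hp⟩)
    · have h2 := pow_orderOf_eq_one z
      rw [hz, pow_two] at h2
      exact congrArg (fun w : Subgroup.center S.P => ((w : S.P) : G)) h2
  rw [h, Subgroup.mem_bot] at hmem
  have : z = 1 := Subtype.ext (Subtype.ext hmem)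
  rw [this, orderOf_one] at hz
  omega

end Setup

end CfsgLib.PushUp.SmallDih
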