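import Cfsg.Agent.Lib.PushUp.SmallDihedral.Long
import Cfsg.Agent.Lib.Cores.PCore

/-!
Identification of `P` and `H / O(H)`.
-/

set_option autoImplicit false
set_option linter.unusedSectionVars false

open Cfsg

namespace CfsgLib.PushUp.SmallDih

variable {G : Type*} [Group G] [Finite G]

theorem eq_one_of_odd_of_sq {a : G} {n : ℕ} (hn : Odd n) (h1 : a ^ n = 1) (h2 : a * a = 1) :
    a = 1 := by
  obtain ⟨k, rfl⟩ := hn
  rwa [pow_succ, pow_mul, pow_two, h2, one_pow, one_mul] at h1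

theorem odd_pow_of_oddCore {a : G} (ha : a ∈ oddCore G) : Odd (orderOf a) :=
  Odd.of_dvd_nat (CfsgLib.Cores.odd_card_oddCore (G := G)) (Subgroup.orderOf_dvd_natCard (oddCore G) ha)

theorem eq_one_of_oddCore {a : G} (ha : a ∈ oddCore G) (h2 : a * a = 1) : a = 1 :=
  eq_one_of_odd_of_sq (odd_pow_of_oddCore ha) (pow_orderOf_eq_one a) h2

namespace Setup

variable {S : Setup G}

theorem card_P : Nat.card S.P = 2 * Nat.card S.Q := by
  classical
  obtain ⟨t, ht, htQ⟩ := S.outside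
  let f : Bool × S.Q → S.P := fun x =>
    ⟨(x.2 : G) * if x.1 then t else 1, S.P.mul_mem (S.QP x.2.2) (by
      split
      · exact ht
      · exact S.P.one_mem)⟩
  have hf : Function.Bijective f := by
    refine ⟨?_, ?_⟩
    · rintro ⟨a, q⟩ ⟨b, q'⟩ h
      have h' := congrArg Subtype.val h
      simp only [f] at h'
      cases a <;> cases b <;> simp at h' ⊢
      · exact h'
      · exfalso; apply htQ
        have := S.Q.mul_mem (S.Q.inv_mem q'.2) q.2
        rwa [h', inv_mul_cancel_left] at this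
      · exfalso; apply htQ
        have := S.Q.mul_mem (S.Q.inv_mem q.2) q'.2
        rwa [← h', inv_mul_cancel_left] at this
      · exact h'
    · rintro ⟨p, hp⟩
      by_cases h : p ∈ S.Q
      · exact ⟨⟨false, ⟨p, h⟩⟩, Subtype.ext (by simp [f])⟩
      · refine ⟨⟨true, ⟨p * t⁻¹, S.idx p hp _ (S.P.inv_mem ht) h fun h' => htQ (by
          simpa using S.Q.inv_mem h')⟩⟩, Subtype.ext (by simp [f])⟩
  rw [← Nat.card_congr (Equiv.ofBijective f hf), Nat.card_prod]
  simp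

theorem pow_mem_P_eq_one {a : G} (ha : a ∈ S.P) (h : a ^ S.n = 1) : a = 1 := by
  obtain ⟨k, hk⟩ := S.P2 ⟨a, ha⟩
  have hk' : a ^ (2 ^ k) = 1 := congrArg Subtype.val hk
  have h2 : orderOf a ∣ 2 ^ k := orderOf_dvd_of_pow_eq_one hk'
  have h3 : Odd (orderOf a) := S.n_odd.of_dvd_nat (orderOf_dvd_of_pow_eq_one h)
  obtain ⟨i, -, hi⟩ := (Nat.dvd_prime_pow Nat.prime_two).mp h2
  rw [← orderOf_eq_one_iff, hi]
  rcases Nat.eq_zero_or_pos i with rfl | hpos
  · rfl
  · rw [hi] at h3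
    exact absurd h3 (Nat.not_odd_iff_even.mpr (Nat.even_pow.mpr ⟨even_two, by omega⟩))

theorem xpow_pow (i : ℕ) : (S.x ^ i) ^ S.n = 1 := by
  rw [← pow_mul, mul_comm, pow_mul, S.x_pow, one_pow]

/-! ### The case `Z(P) ≰ Q` -/

theorem caseA (hA : ¬ S.ZinQ) :
    Nat.card S.P = 4 ∧
      Nonempty (↥S.H ⧸ oddCore ↥S.H ≃* Multiplicative (ZMod 2) × Multiplicative (ZMod 2)) := by
  unfold ZinQ at hA
  push Not at hA
  obtain ⟨z, ⟨hzP, hz⟩, hzQ⟩ := hA
  have hxz : ∀ q ∈ S.Q, cj S.x z * q = q * cj S.x z := by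
    intro q hq
    have h1 := hz (cj S.x⁻¹ q) (S.QP (S.Qn _ (S.H.inv_mem S.xH) q hq))
    have h2 := congrArg (cj S.x) h1
    rw [cj_mul', cj_mul', cj_cj_inv] at h2
    exact h2.symm
  have hnormal : ∀ X : Subgroup G, X ≤ S.Q → (∀ p ∈ S.P, ∀ w ∈ X, cj p w ∈ X) →
      ∀ h ∈ S.H, ∀ w ∈ X, cj h w ∈ X := by
    intro X hXQ hXn h hh w hw
    let K : Subgroup G := Subgroup.normalizer (X : Set G)
    have memK : ∀ g, (∀ w ∈ X, cj g w ∈ X) → g ∈ K := by
      intro g hg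
      rw [Subgroup.mem_normalizer_iff]
      intro a
      refine ⟨fun ha => hg a ha, fun ha => ?_⟩
      have hb : Function.Bijective (fun w : X => (⟨cj g w, hg w w.2⟩ : X)) :=
        Finite.injective_iff_bijective.mp fun a b h =>
          Subtype.ext (cj_injective g (congrArg Subtype.val h))
      obtain ⟨w, hw⟩ := hb.2 ⟨g * a * g⁻¹, ha⟩
      have := cj_injective g (congrArg Subtype.val hw : cj g (w : G) = cj g a)
      exact this ▸ w.2
    have hK := S.gen hzP hzQ K (fun q hq => memK q (hXn q (S.QP hq))) (memK z (hXn z hzP))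
      (memK _ fun w hw => by rw [cj_eq_self.mpr (hxz w (hXQ hw))]; exact hw)
    exact (Subgroup.mem_normalizer_iff.mp (hK hh) w).mp hw
  have hD : S.Q ⊓ S.Q1 = ⊥ := by
    refine S.core _ (le_trans inf_le_left S.QP) (hnormal _ inf_le_left fun p hp w hw =>
      ⟨S.Qn' hp hw.1, S.Q1n hp hw.2⟩) (fun w hw => ⟨(S.e_mem_Q_iff S.isE_y).mpr hw.2, S.cjy_mem_Q1.mpr hw.1⟩)
  obtain ⟨q0, hq0, hq0'⟩ := S.exists_Q_not_Q1
  have hq01 : q0 ≠ 1 := fun h => hq0' (h ▸ S.Q1.one_mem)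
  have honly : ∀ q ∈ S.Q, q = 1 ∨ q = q0 := by
    have hmul : ∀ a ∈ S.Q, ∀ b ∈ S.Q, a ∉ S.Q1 → b ∉ S.Q1 → a * b = 1 := fun a ha b hb ha' hb' => by
      have : a * b ∈ S.Q ⊓ S.Q1 :=
        ⟨S.Q.mul_mem ha hb, S.idx' (S.QP ha) (S.QP hb) ha' hb'⟩
      rwa [hD, Subgroup.mem_bot] at this
    intro q hq
    by_cases h : q ∈ S.Q1
    · left
      have : q ∈ S.Q ⊓ S.Q1 := ⟨hq, h⟩
      rwa [hD, Subgroup.mem_bot] at this
    · right
      exact mul_right_cancel ((hmul q hq q0 hq0 h hq0').trans (hmul q0 hq0 q0 hq0 hq0' hq0').symm)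
  have hsqQ : ∀ q ∈ S.Q, q * q = 1 := by
    intro q hq
    rcases honly q hq with rfl | rfl
    · simp
    · rcases honly (q * q) (S.Q.mul_mem hq hq) with h | h
      · exact h
      · exact absurd (mul_left_cancel (a := q) (by rw [h, mul_one])) hq01
  have hcent : ∀ h ∈ S.H, ∀ q ∈ S.Q, cj h q = q := by
    intro h hh q hq
    rcases honly q hq with rfl | rfl
    · simp
    · rcases honly _ (S.Qn h hh q hq) with h' | h'
      · exact absurd (cj_injective h (h'.trans (cj_one' h).symm)) hq01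
      · exact h'
  obtain ⟨t, ht1, htQ⟩ := S.exists_Q1_not_Q
  have ht : t ∈ S.P := S.Q1P ht1
  have htt : t * t = 1 := by
    have h1 : cj S.y t ∈ S.Q := (S.e_mem_Q_iff S.isE_y).mpr ht1
    have h2 := hsqQ _ h1
    rw [← cj_mul'] at h2
    exact cj_injective S.y (h2.trans (cj_one' _).symm)
  have hPsq : ∀ p ∈ S.P, p * p = 1 := by
    intro p hp
    by_cases h : p ∈ S.Q
    · exact hsqQ p h
    · have hq := S.idx p hp t ht h htQ
      have e : p = p * t * t := by rw [mul_assoc, htt, mul_one]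
      rw [e]
      have hcm : (p * t) * t = t * (p * t) := (cj_eq_self.mp (hcent t (S.PH ht) _ hq)).symm
      calc p * t * t * (p * t * t) = p * t * (t * (p * t)) * t := by simp only [mul_assoc]
        _ = (p * t) * (p * t) * (t * t) := by rw [← hcm]; simp only [mul_assoc]
        _ = 1 := by rw [hsqQ _ hq, htt, mul_one]
  have hcard : Nat.card S.P = 4 := by
    rw [card_P]
    have hQ2 : Nat.card S.Q = 2 := by
      classical
      let f : Bool → S.Q := fun b => if b then ⟨q0, hq0⟩ else 1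
      have hf : Function.Bijective f := by
        refine ⟨?_, fun q => ?_⟩
        · intro a b h
          cases a <;> cases b <;> simp [f, Subtype.ext_iff, hq01, Ne.symm hq01] at h ⊢
        · rcases honly q q.2 with h | h
          · exact ⟨false, Subtype.ext h.symm⟩
          · exact ⟨true, Subtype.ext h.symm⟩
      rw [← Nat.card_congr (Equiv.ofBijective f hf)]
      simp
    rw [hQ2]
  refine ⟨hcard, ?_⟩
  set q := t * S.x * t⁻¹ * S.x with hq_def
  have hqQ : q ∈ S.Q := S.inv t ht htQ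
  have htx : t * S.x * t⁻¹ = S.x⁻¹ := by
    have e : t * S.x * t⁻¹ = q * S.x⁻¹ := by rw [hq_def]; group
    have hc : Commute q S.x⁻¹ := (cj_eq_self.mp (hcent _ (S.H.inv_mem S.xH) q hqQ)).symm
    have h1 : (q * S.x⁻¹) ^ S.n = 1 := by rw [← e, conj_pow, S.x_pow, mul_one, mul_inv_cancel]
    rw [hc.mul_pow, inv_pow, S.x_pow, inv_one, mul_one] at h1
    rw [e, eq_one_of_odd_of_sq S.n_odd h1 (hsqQ q hqQ), one_mul]
  let xH : S.H := ⟨S.x, S.xH⟩
  let N : Subgroup S.H := Subgroup.zpowers xH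
  have hPx : ∀ p ∈ S.P, cj p S.x = S.x ∨ cj p S.x = S.x⁻¹ := by
    intro p hp
    have hQx : ∀ q ∈ S.Q, cj q S.x = S.x := fun q hq =>
      cj_eq_self.mpr (cj_eq_self.mp (hcent S.x S.xH q hq)).symm
    by_cases h : p ∈ S.Q
    · exact Or.inl (hQx p h)
    · right
      have e : p = p * t * t := by rw [mul_assoc, htt, mul_one]
      rw [e, cj_mul, show cj t S.x = S.x⁻¹ from htx, cj_inv', hQx _ (S.idx p hp t ht h htQ)]
  have hNn : N.Normal := by
    refine ⟨fun a ha h => ?_⟩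
    obtain ⟨i, p, hp, e⟩ := S.dich h h.2
    obtain ⟨k, rfl⟩ := Subgroup.mem_zpowers_iff.mp ha
    rw [← conj_zpow]
    refine Subgroup.zpow_mem _ ?_ k
    have he : ((h * xH * h⁻¹ : S.H) : G) = cj (h : G) S.x := rfl
    rcases hPx p hp with h' | h'
    · refine Subgroup.mem_zpowers_iff.mpr ⟨1, Subtype.ext ?_⟩
      rw [zpow_one, he, e, cj_mul, h', cj_eq_self.mpr (Commute.pow_self S.x i)]
    · refine Subgroup.mem_zpowers_iff.mpr ⟨-1, Subtype.ext ?_⟩
      rw [zpow_neg_one, he, e, cj_mul, h', cj_inv', cj_eq_self.mpr (Commute.pow_self S.x i)]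
      rfl
  have hNle : N ≤ oddCore ↥S.H := by
    refine CfsgLib.Cores.le_oddCore ?_
    rw [Nat.card_zpowers]
    exact S.n_odd.of_dvd_nat (orderOf_dvd_of_pow_eq_one (Subtype.ext (by simp [xH, S.x_pow])))
  let j : S.P →* ↥S.H ⧸ oddCore ↥S.H := (QuotientGroup.mk' _).comp (Subgroup.inclusion S.PH)
  have hj : Function.Bijective j := by
    refine ⟨(injective_iff_map_eq_one j).mpr fun p hp => ?_, fun a => ?_⟩
    · have hm : (Subgroup.inclusion S.PH p : S.H) ∈ oddCore ↥S.H :=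
        (QuotientGroup.eq_one_iff _).mp hp
      exact Subtype.ext (congrArg Subtype.val
        (eq_one_of_oddCore hm (Subtype.ext (hPsq p p.2))) : _)
    · induction a using QuotientGroup.induction_on with
      | H h =>
        obtain ⟨i, p, hp, e⟩ := S.dich h h.2
        refine ⟨⟨p, hp⟩, ?_⟩
        have e' : h = xH ^ i * Subgroup.inclusion S.PH ⟨p, hp⟩ := Subtype.ext (by simpa [xH] using e)
        rw [e', QuotientGroup.mk_mul,
          (QuotientGroup.eq_one_iff _).mpr (hNle (Subgroup.pow_mem _ (Subgroup.mem_zpowers xH) i)),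
          one_mul]
        rfl
  have : IsKleinFour S.P := by
    refine ⟨hcard, ?_⟩
    have hd : Monoid.exponent S.P ∣ 2 :=
      Monoid.exponent_dvd_of_forall_pow_eq_one fun p => Subtype.ext (by simp [pow_two, hPsq p p.2])
    rcases (Nat.dvd_prime Nat.prime_two).mp hd with h | h
    · have := Monoid.exp_eq_one_iff.mp h
      rw [Nat.card_unique] at hcard
      omega
    · exact h
  have : IsKleinFour (Multiplicative (ZMod 2 × ZMod 2)) := inferInstance
  obtain ⟨e⟩ := IsKleinFour.nonempty_mulEquiv (G₁ := S.P) (G₂ := Multiplicative (ZMod 2 × ZMod 2))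
  exact ⟨(MulEquiv.ofBijective j hj).symm.trans (e.trans (MulEquiv.prodMultiplicative _ _))⟩

/-! ### The case `Z(P) ≤ Q` -/

section
variable (hB : S.ZinQ) {r : G} (hr : S.IsTr r)
include hB hr

theorem Q_le_V : ∀ q ∈ S.Q, q ∈ S.V := by
  obtain ⟨v, hv, hvQ⟩ := short hB hr
  have hv1 : v ∉ S.Q1 := fun h => hvQ ((S.e_mem_Q_iff S.isE_y).mpr h)
  have hvQ' := V_le_Q hB hv
  have hdec : ∀ q ∈ S.Q, ∃ w ∈ S.Q, w ∈ S.Q1 ∧ (q = w ∨ q = w * v) := by
    intro q hq
    by_cases h : q ∈ S.Q1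
    · exact ⟨q, hq, h, Or.inl rfl⟩
    · exact ⟨q * v⁻¹, S.Q.mul_mem hq (S.Q.inv_mem hvQ'),
        S.idx' (S.QP hq) (S.P.inv_mem (V_le_P hB hv)) h
          (fun h' => hv1 (by simpa using S.Q1.inv_mem h')), Or.inr (by simp)⟩
  have hsq : ∀ q ∈ S.Q, ∃ w ∈ S.Q, w ∈ S.Q1 ∧ q * q = w * w := by
    intro q hq
    obtain ⟨w, hw, hw1, rfl | rfl⟩ := hdec q hq
    · exact ⟨q, hw, hw1, rfl⟩
    · refine ⟨w, hw, hw1, ?_⟩
      calc w * v * (w * v) = w * (v * w) * v := by simp only [mul_assoc]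
        _ = w * w * (v * v) := by rw [← Q_commute_V hB hw hv]; simp only [mul_assoc]
        _ = w * w := by rw [V_sq hB hv, mul_one]
  have hX : Subgroup.closure {z | ∃ q ∈ S.Q, z = q * q} = ⊥ := by
    refine S.core _ ?_ ?_ ?_
    · rw [Subgroup.closure_le]
      rintro z ⟨q, hq, rfl⟩
      exact S.QP (S.Q.mul_mem hq hq)
    · intro h hh z hz
      refine cj_closure ?_ hz
      rintro u ⟨q, hq, rfl⟩
      exact Subgroup.subset_closure ⟨_, S.Qn h hh q hq, cj_mul' _ _ _⟩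
    · intro z hz
      refine cj_closure ?_ hz
      rintro u ⟨q, hq, rfl⟩
      obtain ⟨w, -, hw1, e⟩ := hsq q hq
      rw [e]
      exact Subgroup.subset_closure ⟨_, (S.e_mem_Q_iff S.isE_y).mpr hw1, cj_mul' _ _ _⟩
  have hsq1 : ∀ q ∈ S.Q, q * q = 1 := fun q hq => by
    have : q * q ∈ (⊥ : Subgroup G) := hX ▸ Subgroup.subset_closure ⟨q, hq, rfl⟩
    exact Subgroup.mem_bot.mp this
  have hcomm : ∀ a ∈ S.Q, ∀ b ∈ S.Q, a * b = b * a := fun a ha b hb => by
    have h := inv_eq_of_mul_eq_one_right (hsq1 _ (S.Q.mul_mem ha hb))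
    rw [mul_inv_rev, inv_eq_of_mul_eq_one_right (hsq1 b hb),
      inv_eq_of_mul_eq_one_right (hsq1 a ha)] at h
    exact h.symm
  have hin : ∀ w ∈ S.Q, w ∈ S.Q1 → w ∈ S.V := by
    intro w hw hw1
    refine S.Om_le_V ⟨⟨S.QP hw, fun p hp => ?_⟩, hsq1 w hw⟩
    refine Subgroup.mem_centralizer_singleton_iff.mp (S.P_le (S.yP v (V_le_P hB hv)) hvQ
      (Subgroup.centralizer {w})
      (fun q hq => Subgroup.mem_centralizer_singleton_iff.mpr (hcomm q hq w hw))
      (Subgroup.mem_centralizer_singleton_iff.mpr ?_) hp)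
    have h1 := congrArg (cj S.y) (Q_commute_V hB (S.mem_Q1.mp hw1) hv)
    rw [cj_mul', cj_mul', cj_cj_inv] at h1
    exact h1.symm
  intro q hq
  obtain ⟨w, hw, hw1, rfl | rfl⟩ := hdec q hq
  · exact hin q hw hw1
  · exact S.V.mul_mem (hin w hw hw1) hv

end

/-- the natural part `{1, r, r^x, r^{x²}}` -/
def UU (S : Setup G) (r : G) : Set G := {u | u = 1 ∨ u = r ∨ u = cj S.x r ∨ u = cj (S.x * S.x) r}

section
variable (hB : S.ZinQ) {r : G} (hr : S.IsTr r)
include hB hr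

theorem xr_V : cj S.x r ∈ S.V := S.V_normal S.xH (r_V hB hr)

theorem xr_not_Om : cj S.x r ∉ S.Om := (r_orbit hB hr S.xH).resolve_left (x_r_ne hB hr)

theorem xr_mul_r : cj S.x r * r = cj (S.x * S.x) r := by
  obtain ⟨t, ht, htQ⟩ := S.outside
  rw [← hr.2.2 t ht htQ _ (xr_V hB hr) (xr_not_Om hB hr)]
  have e : cj t (cj S.x r) = cj (t * S.x * t⁻¹ * S.x) (cj S.x⁻¹ (cj t r)) := by simp [cj, mul_assoc]
  rw [e, fix_r hB hr ht,
    cjQ_fix hB (S.inv t ht htQ) (S.V_normal (S.H.inv_mem S.xH) (r_V hB hr))]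
  have h3 : cj S.x⁻¹ (cj (S.x ^ 3) r) = cj (S.x * S.x) r := by
    rw [← cj_mul, show S.x⁻¹ * S.x ^ 3 = S.x * S.x by rw [pow_succ', inv_mul_cancel_left, pow_two]]
  rwa [cube_fix hB hr (r_V hB hr)] at h3

theorem UU_V {u : G} (hu : u ∈ S.UU r) : u ∈ S.V := by
  rcases hu with rfl | rfl | rfl | rfl
  exacts [S.V.one_mem, r_V hB hr, xr_V hB hr,
    S.V_normal (S.H.mul_mem S.xH S.xH) (r_V hB hr)]

theorem UU_mul {a b : G} (ha : a ∈ S.UU r) (hb : b ∈ S.UU r) : a * b ∈ S.UU r := by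
  have hrV := r_V hB hr
  have hxV := xr_V hB hr
  set p := cj S.x r with hp
  set q := cj (S.x * S.x) r with hq
  have e0 : q = p * r := (xr_mul_r hB hr).symm
  have hc : r * p = p * r := V_comm hB hrV hxV
  have h1 : r * r = 1 := r_sq hB hr
  have h2 : p * p = 1 := V_sq hB hxV
  have h3 : r * (p * r) = p := by rw [← hc, ← mul_assoc, h1, one_mul]
  have h4 : p * (p * r) = r := by rw [← mul_assoc, h2, one_mul]
  have h5 : p * r * r = p := by rw [mul_assoc, h1, mul_one]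
  have h6 : p * r * p = r := by rw [mul_assoc, hc, h4]
  have h7 : p * r * (p * r) = 1 := by rw [← mul_assoc, h6, h1]
  simp only [UU, Set.mem_ofPred_eq, ← hp, ← hq, e0] at ha hb ⊢
  rcases ha with rfl | rfl | rfl | rfl <;> rcases hb with rfl | rfl | rfl | rfl <;>
    simp [h1, h2, h3, h4, h5, h6, h7, hc]

/-- the natural part as a subgroup -/
def U : Subgroup G where
  carrier := S.UU r
  one_mem' := Or.inl rfl
  mul_mem' := UU_mul hB hr
  inv_mem' {a} ha := by rwa [V_inv hB (UU_V hB hr ha)]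

theorem U_normal {h u : G} (hh : h ∈ S.H) (hu : u ∈ U hB hr) : cj h u ∈ U hB hr := by
  have key : ∀ h ∈ S.H, cj h r ∈ S.UU r := fun h hh => by
    rcases orbit_three hB hr hh with e | e | e <;> rw [e]
    exacts [Or.inr (Or.inl rfl), Or.inr (Or.inr (Or.inl rfl)), Or.inr (Or.inr (Or.inr rfl))]
  rcases hu with rfl | rfl | rfl | rfl
  · rw [cj_one']; exact Or.inl rfl
  · exact key h hh
  · rw [← cj_mul]; exact key _ (S.H.mul_mem hh S.xH)
  · rw [← cj_mul]; exact key _ (S.H.mul_mem hh (S.H.mul_mem S.xH S.xH))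

theorem U_fix {u : G} (hu : u ∈ U hB hr) (h : cj S.x u = u) : u = 1 := by
  rcases hu with rfl | rfl | rfl | rfl
  · rfl
  · exact absurd h (x_r_ne hB hr)
  · exact absurd (cj_injective _ h) (x_r_ne hB hr)
  · rw [← cj_mul, show S.x * (S.x * S.x) = S.x * S.x * S.x by group, cj_mul (S.x * S.x)] at h
    exact absurd (cj_injective _ h) (x_r_ne hB hr)

theorem U_cent {u : G} (hu : u ∈ U hB hr) (h : S.Cent u) : u = 1 :=
  U_fix hB hr hu (h.fix S.xH)

theorem decomp {u : G} (hu : u ∈ S.Q) : ∃ z ∈ U hB hr, ∃ c ∈ S.Om, S.Cent c ∧ u = z * c := by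
  have huV := Q_le_V hB hr u hu
  have key : ∀ w ∈ S.Om, ∃ z ∈ U hB hr, ∃ c ∈ S.Om, S.Cent c ∧ w = z * c := by
    intro w hw
    rcases Om_split hB hr hw with h | h
    · exact ⟨1, Or.inl rfl, w, hw, h, (one_mul w).symm⟩
    · refine ⟨r, Or.inr (Or.inl rfl), w * r, S.Om.mul_mem hw hr.1, h, ?_⟩
      rw [V_comm hB (r_V hB hr) (S.V.mul_mem (S.Om_le_V hw) (r_V hB hr)), mul_assoc, r_sq hB hr,
        mul_one]
  by_cases h : u ∈ S.Om
  · exact key u h
  · obtain ⟨z, hz, c, hc, hcc, e⟩ :=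
      key _ (mul_mem_Om hB (xr_V hB hr) huV (xr_not_Om hB hr) h)
    refine ⟨cj S.x r * z, (U hB hr).mul_mem (Or.inr (Or.inr (Or.inl rfl))) hz, c, hc, hcc, ?_⟩
    rw [mul_assoc, ← e, ← mul_assoc, V_sq hB (xr_V hB hr), one_mul]

theorem orbit_prod {u : G} (hu : u ∈ U hB hr) : u * cj S.x u * cj (S.x * S.x) u = 1 := by
  have hx3 : cj S.x (cj (S.x * S.x) r) = r := by
    rw [← cj_mul, show S.x * (S.x * S.x) = S.x ^ 3 by rw [pow_succ', pow_two], cube_fix hB hr (r_V hB hr)]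
  have hp := xr_V hB hr
  have hrV := r_V hB hr
  have hqV := S.V_normal (S.H.mul_mem S.xH S.xH) hrV
  have e0 := xr_mul_r hB hr
  have hrp : r * cj S.x r * cj (S.x * S.x) r = 1 := by
    rw [V_comm hB hrV hp, e0, V_sq hB hqV]
  have hrot : ∀ a : G, a * cj S.x a * cj (S.x * S.x) a = 1 →
      cj S.x a * cj S.x (cj S.x a) * cj (S.x * S.x) (cj S.x a) = 1 := by
    intro a ha
    have := congrArg (cj S.x) ha
    simpa [cj, mul_assoc] using this
  rcases hu with rfl | rfl | rfl | rfl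
  · simp
  · exact hrp
  · exact hrot r hrp
  · rw [cj_mul S.x S.x r]
    exact hrot _ (hrot r hrp)

theorem n_three : 3 ∣ S.n := three_dvd hB hr (by rw [S.x_pow, cj_one])

/-- an involution inverting `x` -/
theorem exists_tau : ∃ τ ∈ S.P, τ ∉ S.Q ∧ τ * τ = 1 ∧ cj τ S.x = S.x⁻¹ := by
  obtain ⟨v, hv, htQ⟩ := short hB hr
  set t := cj S.y v with ht_def
  have ht : t ∈ S.P := S.yP v (V_le_P hB hv)
  have htt : t * t = 1 := by rw [ht_def, ← cj_mul', V_sq hB hv, cj_one']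
  set q := t * S.x * t⁻¹ * S.x with hq_def
  have hqQ : q ∈ S.Q := S.inv t ht htQ
  have e : t * S.x * t⁻¹ = q * S.x⁻¹ := by rw [hq_def]; group
  obtain ⟨z, hz, c, hc, hcc, ezc⟩ := decomp hB hr hqQ
  have hzU := hz
  have hc1 : c = 1 := by
    obtain ⟨k, hk⟩ := n_three hB hr
    have h3 : (z * S.x⁻¹) ^ 3 = (S.x ^ 3)⁻¹ := by
      have := orbit_prod hB hr hz
      have e1 : (z * S.x⁻¹) ^ 3 = z * cj S.x⁻¹ z * cj (S.x⁻¹ * S.x⁻¹) z * (S.x ^ 3)⁻¹ := by
        simp [pow_succ, cj, mul_assoc]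
      have hcomm : ∀ a ∈ U hB hr, cj S.x⁻¹ a = cj (S.x * S.x) a := fun a ha => by
        have e2 := cube_fix hB hr (UU_V hB hr ha)
        conv_lhs => rw [← e2, ← cj_mul, show S.x⁻¹ * S.x ^ 3 = S.x * S.x by rw [pow_succ', inv_mul_cancel_left, pow_two]]
      have e3 : cj (S.x⁻¹ * S.x⁻¹) z = cj S.x z := by
        have e2 := cube_fix hB hr (UU_V hB hr hz)
        conv_lhs => rw [← e2, ← cj_mul, show S.x⁻¹ * S.x⁻¹ * S.x ^ 3 = S.x by group]
      rw [e1, hcomm z hz, e3,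
        mul_assoc z, V_comm hB (S.V_normal (S.H.mul_mem S.xH S.xH) (UU_V hB hr hz))
          (S.V_normal S.xH (UU_V hB hr hz)), ← mul_assoc z, this, one_mul]
    have h1 : (q * S.x⁻¹) ^ S.n = 1 := by rw [← e, conj_pow, S.x_pow, mul_one, mul_inv_cancel]
    have hcomm : Commute c (z * S.x⁻¹) :=
      (hcc _ (S.H.mul_mem (S.QH (V_le_Q hB (UU_V hB hr hz))) (S.H.inv_mem S.xH))).symm
    rw [ezc, show z * c * S.x⁻¹ = c * (z * S.x⁻¹) by
      rw [V_comm hB (UU_V hB hr hz) (S.Om_le_V hc), mul_assoc], hcomm.mul_pow] at h1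
    conv at h1 => lhs; arg 2; rw [hk, pow_mul, h3, inv_pow, ← pow_mul, ← hk, S.x_pow, inv_one]
    rw [mul_one] at h1
    exact eq_one_of_odd_of_sq S.n_odd h1 hc.2
  rw [hc1, mul_one] at ezc
  set u := cj (S.x * S.x) z with hu_def
  have huU : u ∈ U hB hr := U_normal hB hr (S.H.mul_mem S.xH S.xH) hz
  have huV := UU_V hB hr huU
  have htx : cj (u * t) S.x = S.x⁻¹ := by
    have e1 : cj (u * t) S.x = u * (t * S.x * t⁻¹) * u⁻¹ := by simp [cj, mul_assoc]
    rw [e1, e, ezc, V_inv hB huV]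
    have e2 : u * (z * S.x⁻¹) * u = u * z * cj S.x⁻¹ u * S.x⁻¹ := by simp [cj, mul_assoc]
    rw [e2, hu_def, ← cj_mul, show S.x⁻¹ * (S.x * S.x) = S.x by group,
      V_comm hB (S.V_normal (S.H.mul_mem S.xH S.xH) (UU_V hB hr hz)) (UU_V hB hr hz),
      mul_assoc z, V_comm hB (S.V_normal (S.H.mul_mem S.xH S.xH) (UU_V hB hr hz))
        (S.V_normal S.xH (UU_V hB hr hz)), ← mul_assoc z, orbit_prod hB hr hz, one_mul]
  have hutP : u * t ∈ S.P := S.P.mul_mem (V_le_P hB huV) ht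
  refine ⟨u * t, hutP, fun h => htQ (by
    have := S.Q.mul_mem (S.Q.inv_mem (V_le_Q hB huV)) h
    rwa [inv_mul_cancel_left] at this), ?_, htx⟩
  have hti : t⁻¹ = t := inv_eq_of_mul_eq_one_right htt
  have e3 : u * t * (u * t) = u * cj t u := by simp [cj, mul_assoc, hti]
  rw [e3]
  rcases t_on_V hB hr ht htQ huV with h | h <;> rw [h]
  · exact V_sq hB huV
  · exfalso
    rw [h, ← mul_assoc u u r, V_sq hB huV, one_mul] at e3
    have h1 : cj (u * t * (u * t)) S.x = S.x := by rw [cj_mul, htx, cj_inv', htx, inv_inv]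
    rw [e3] at h1
    exact x_r_ne hB hr (cj_eq_self.mpr (cj_eq_self.mp h1).symm)

end

end Setup

end CfsgLib.PushUp.SmallDih
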