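import Cfsg.Agent.Lib.PushUp.SmallDihedral.Final

/-!
`H / O(H)` in the case `Z(P) ≤ Q`: `S₄` or `S₄ × 2`.
-/

set_option autoImplicit false
set_option linter.unusedSectionVars false

open Cfsg

namespace CfsgLib.PushUp.SmallDih

variable {G : Type*} [Group G] [Finite G]

namespace Setup

variable {S : Setup G}

/-- elements of `H` normalising `⟨x⟩` -/
def Nx (S : Setup G) : Subgroup G where
  carrier := {k | k ∈ S.H ∧ (cj k S.x = S.x ∨ cj k S.x = S.x⁻¹)}
  one_mem' := ⟨S.H.one_mem, Or.inl (cj_one _)⟩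
  mul_mem' := by
    rintro a b ⟨ha, ha'⟩ ⟨hb, hb'⟩
    refine ⟨S.H.mul_mem ha hb, ?_⟩
    rw [cj_mul]
    rcases ha' with h | h <;> rcases hb' with h' | h' <;> simp [h', cj_inv', h]
  inv_mem' := by
    rintro a ⟨ha, ha'⟩
    refine ⟨S.H.inv_mem ha, ?_⟩
    rcases ha' with h | h
    · exact Or.inl (cj_injective a (by rw [cj_cj_inv, h]))
    · exact Or.inr (cj_injective a (by rw [cj_cj_inv, cj_inv', h, inv_inv]))

theorem x_mem_Nx : S.x ∈ S.Nx := ⟨S.xH, Or.inl (by simp [cj])⟩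

theorem cent_mem_Nx {c : G} (hc : c ∈ S.Om) (h : S.Cent c) : c ∈ S.Nx :=
  ⟨S.PH (S.Om_le hc), Or.inl (cj_eq_self.mpr (h S.x S.xH).symm)⟩

theorem pow_fix {g : G} {h : G} (hh : cj h g = g) (j : ℕ) : cj h (g ^ j) = g ^ j :=
  cj_eq_self.mpr (Commute.pow_right (cj_eq_self.mp hh) j)

variable (hB : S.ZinQ) {r : G} (hr : S.IsTr r)
include hB hr

theorem U_Nx {u : G} (hu : u ∈ U hB hr) (h : u ∈ S.Nx) : u = 1 := by
  rcases h.2 with h' | h'
  · exact U_fix hB hr hu (cj_eq_self.mpr (cj_eq_self.mp h').symm)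
  · exfalso
    have huQ := V_le_Q hB (UU_V hB hr hu)
    have e : S.x * S.x = (u * cj S.x u⁻¹)⁻¹ := by
      have e1 : u * cj S.x u⁻¹ = cj u S.x * S.x⁻¹ := by simp [cj, mul_assoc]
      rw [e1, h', mul_inv_rev, inv_inv]
    have hxx : S.x * S.x ∈ S.Q := by
      rw [e]; exact S.Q.inv_mem (S.Q.mul_mem huQ (S.Qn _ S.xH _ (S.Q.inv_mem huQ)))
    exact xx_r_ne hB hr (cjQ_fix hB hxx (r_V hB hr))

theorem H_decomp {h : G} (hh : h ∈ S.H) {τ : G} (hτ : τ ∈ S.P) (hτQ : τ ∉ S.Q) :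
    ∃ u ∈ U hB hr, ∃ i : ℕ, ∃ c ∈ S.Om, S.Cent c ∧
      (h = u * (S.x ^ i * c) ∨ h = u * (S.x ^ i * c * τ)) := by
  obtain ⟨i, p, hp, rfl⟩ := S.dich h hh
  have hxi := S.H.pow_mem S.xH i
  by_cases hpQ : p ∈ S.Q
  · obtain ⟨z, hz, c, hc, hcc, rfl⟩ := decomp hB hr hpQ
    exact ⟨_, U_normal hB hr hxi hz, i, c, hc, hcc, Or.inl (by simp [cj, mul_assoc])⟩
  · have hq : p * τ⁻¹ ∈ S.Q := S.idx p hp _ (S.P.inv_mem hτ) hpQ
      (fun h => hτQ (by simpa using S.Q.inv_mem h))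
    obtain ⟨z, hz, c, hc, hcc, e⟩ := decomp hB hr hq
    refine ⟨_, U_normal hB hr hxi hz, i, c, hc, hcc, Or.inr ?_⟩
    rw [show p = z * c * τ by rw [← e, inv_mul_cancel_right]]
    simp [cj, mul_assoc]

theorem x3_U {u : G} (hu : u ∈ U hB hr) (j : ℕ) : cj u ((S.x ^ 3) ^ j) = (S.x ^ 3) ^ j :=
  pow_fix (cj_eq_self.mpr (cj_eq_self.mp (cube_fix hB hr (UU_V hB hr hu))).symm) j

/-- the kernel of the action on `H / Nx` -/
theorem centralises_U {k : G} (hk : k ∈ S.H) (h : ∀ u ∈ U hB hr, cj k u = u) :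
    ∃ j : ℕ, ∃ q ∈ S.Q, k = (S.x ^ 3) ^ j * q := by
  obtain ⟨j, p, hp, rfl⟩ := stab_r hB hr hk (h r (Or.inr (Or.inl rfl)))
  refine ⟨j, p, ?_, rfl⟩
  by_contra hpQ
  have h1 := h _ (Or.inr (Or.inr (Or.inl rfl)) : cj S.x r ∈ U hB hr)
  rw [cj_mul, hr.2.2 p hp hpQ _ (xr_V hB hr) (xr_not_Om hB hr),
    cj_pow_of_fix (cube_fix hB hr (S.V.mul_mem (xr_V hB hr) (r_V hB hr)))] at h1
  exact hr.2.1 (mul_left_cancel (a := cj S.x r) (by rw [h1, mul_one]))

theorem card_U : Nat.card (U hB hr) = 4 := by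
  classical
  have h1 : r ≠ 1 := hr.2.1
  have h2 : cj S.x r ≠ 1 := fun h => h1 (cj_injective _ (h.trans (cj_one' _).symm))
  have h3 : cj (S.x * S.x) r ≠ 1 := fun h => h1 (cj_injective _ (h.trans (cj_one' _).symm))
  have h4 := x_r_ne hB hr
  have h5 := xx_r_ne hB hr
  have h6 : cj (S.x * S.x) r ≠ cj S.x r := fun h => h4 (cj_injective S.x (by rwa [← cj_mul]))
  have e : (U hB hr : Set G) = (({1, r, cj S.x r, cj (S.x * S.x) r} : Finset G) : Set G) := by
    ext a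
    simp [U, UU]
  rw [show Nat.card (U hB hr) = Nat.card ((U hB hr : Set G)) from rfl, e, Nat.card_coe_set_eq,
    Set.ncard_coe_finset]
  simp [h1.symm, h2.symm, h3.symm, h4.symm, h5.symm, h6.symm]

/-- `C₀` -/
def C0 (S : Setup G) : Set G := {c | c ∈ S.Om ∧ S.Cent c}

theorem card_Q : (∀ c ∈ S.C0, c = 1) ∧ Nat.card S.Q = 4 ∨
    ∃ c ∈ S.C0, c ≠ 1 ∧ (∀ d ∈ S.C0, d = 1 ∨ d = c) ∧ Nat.card S.Q = 8 := by
  classical
  have hU := card_U hB hr
  have hUQ : ∀ u ∈ U hB hr, u ∈ S.Q := fun u hu => V_le_Q hB (UU_V hB hr hu)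
  by_cases h : ∀ c ∈ S.C0, c = 1
  · refine Or.inl ⟨h, ?_⟩
    rw [show S.Q = U hB hr from le_antisymm (fun u hu => ?_) hUQ, hU]
    obtain ⟨z, hz, c, hc, hcc, rfl⟩ := decomp hB hr hu
    rw [h c ⟨hc, hcc⟩, mul_one]; exact hz
  · push Not at h
    obtain ⟨c, hc, hc1⟩ := h
    have huniq : ∀ d ∈ S.C0, d = 1 ∨ d = c := fun d hd => (Classical.em (d = 1)).imp_right
      (fun hd1 => cent_unique hB hr hd.1 hc.1 hd.2 hc.2 hd1 hc1)
    refine Or.inr ⟨c, hc, hc1, huniq, ?_⟩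
    have hcQ : c ∈ S.Q := hB c hc.1.1
    let f : U hB hr × Bool → S.Q := fun a =>
      ⟨(a.1 : G) * if a.2 then c else 1, S.Q.mul_mem (hUQ a.1 a.1.2) (by
        split
        · exact hcQ
        · exact S.Q.one_mem)⟩
    have hf : Function.Bijective f := by
      refine ⟨?_, ?_⟩
      · rintro ⟨a, i⟩ ⟨b, j⟩ e
        have e' := congrArg Subtype.val e
        simp only [f] at e'
        cases i <;> cases j <;> simp at e' ⊢
        · exact e'
        · exfalso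
          exact hc1 (U_cent hB hr (by
            rw [show c = (b : G)⁻¹ * a by rw [e', inv_mul_cancel_left]]
            exact (U hB hr).mul_mem ((U hB hr).inv_mem b.2) a.2) hc.2)
        · exfalso
          exact hc1 (U_cent hB hr (by
            rw [show c = (a : G)⁻¹ * b by rw [← e', inv_mul_cancel_left]]
            exact (U hB hr).mul_mem ((U hB hr).inv_mem a.2) b.2) hc.2)
        · exact e'
      · rintro ⟨u, hu⟩
        obtain ⟨z, hz, d, hd, hdd, rfl⟩ := decomp hB hr hu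
        rcases huniq d ⟨hd, hdd⟩ with rfl | rfl
        · exact ⟨(⟨z, hz⟩, false), Subtype.ext (by simp [f])⟩
        · exact ⟨(⟨z, hz⟩, true), Subtype.ext (by simp [f])⟩
    rw [← Nat.card_congr (Equiv.ofBijective f hf), Nat.card_prod, hU]
    simp

theorem card_P_B : Nat.card S.P = 8 ∨ Nat.card S.P = 16 := by
  rw [card_P]
  rcases card_Q hB hr with ⟨-, h⟩ | ⟨c, -, -, -, h⟩
  · exact Or.inl (by rw [h])
  · exact Or.inr (by rw [h])

theorem caseB :
    Nonempty (↥S.H ⧸ oddCore ↥S.H ≃* Equiv.Perm (Fin 4)) ∨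
    Nonempty (↥S.H ⧸ oddCore ↥S.H ≃* Equiv.Perm (Fin 4) × Multiplicative (ZMod 2)) := by
  classical
  obtain ⟨τ, hτ, hτQ, hττ, hτx⟩ := exists_tau hB hr
  have hτN : τ ∈ S.Nx := ⟨S.PH hτ, Or.inr hτx⟩
  have hUH : ∀ u ∈ U hB hr, u ∈ S.H := fun u hu => S.QH (V_le_Q hB (UU_V hB hr hu))
  have hdec : ∀ h ∈ S.H, ∃ u ∈ U hB hr, ∃ k ∈ S.Nx, h = u * k := by
    intro h hh
    obtain ⟨u, hu, i, c, hc, hcc, e | e⟩ := H_decomp hB hr hh hτ hτQ
    · exact ⟨u, hu, _, S.Nx.mul_mem (S.Nx.pow_mem x_mem_Nx i) (cent_mem_Nx hc hcc), e⟩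
    · exact ⟨u, hu, _, S.Nx.mul_mem (S.Nx.mul_mem (S.Nx.pow_mem x_mem_Nx i) (cent_mem_Nx hc hcc)) hτN, e⟩
  let NH : Subgroup S.H := S.Nx.subgroupOf S.H
  let Φ := MulAction.toPermHom S.H (S.H ⧸ NH)
  let base : U hB hr → S.H ⧸ NH := fun u => QuotientGroup.mk ⟨u, hUH u u.2⟩
  have hbase : Function.Bijective base := by
    refine ⟨fun a b e => ?_, fun w => ?_⟩
    · have e' : (a : G)⁻¹ * b ∈ S.Nx := (QuotientGroup.eq (s := NH)).mp e
      have := U_Nx hB hr ((U hB hr).mul_mem ((U hB hr).inv_mem a.2) b.2) e'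
      exact Subtype.ext (inv_mul_eq_one.mp this)
    · induction w using QuotientGroup.induction_on with
      | H h =>
        obtain ⟨u, hu, k, hk, e⟩ := hdec h h.2
        refine ⟨⟨u, hu⟩, QuotientGroup.eq.mpr ?_⟩
        show (u : G)⁻¹ * h ∈ S.Nx
        rw [e, inv_mul_cancel_left]; exact hk
  have hker : ∀ k : S.H, Φ k = 1 ↔ ∃ j : ℕ, ∃ c ∈ S.C0, (k : G) = (S.x ^ 3) ^ j * c := by
    intro k
    rw [← MonoidHom.mem_ker, ← Subgroup.normalCore_eq_ker]
    constructor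
    · intro hk
      have hkN : ∀ h ∈ S.H, cj h k ∈ S.Nx := fun h hh => hk ⟨h, hh⟩
      have hfix : ∀ u ∈ U hB hr, cj (k : G) u = u := by
        intro u hu
        have h1 : u * cj (k : G) u⁻¹ ∈ U hB hr :=
          (U hB hr).mul_mem hu (U_normal hB hr k.2 ((U hB hr).inv_mem hu))
        have h2 : u * cj (k : G) u⁻¹ ∈ S.Nx := by
          have e : u * cj (k : G) u⁻¹ = cj u (k : G) * (k : G)⁻¹ := by simp [cj, mul_assoc]
          rw [e]
          exact S.Nx.mul_mem (hkN u (hUH u hu)) (S.Nx.inv_mem (by simpa using hkN 1 S.H.one_mem))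
        have h3 := U_Nx hB hr h1 h2
        rw [cj_inv', mul_inv_eq_one] at h3
        exact h3.symm
      obtain ⟨j, q, hq, e⟩ := centralises_U hB hr k.2 hfix
      obtain ⟨z, hz, c, hc, hcc, rfl⟩ := decomp hB hr hq
      refine ⟨j, c, ⟨hc, hcc⟩, ?_⟩
      have hzN : z ∈ S.Nx := by
        have h1 : (k : G) ∈ S.Nx := by simpa using hkN 1 S.H.one_mem
        have h2 : z = ((S.x ^ 3) ^ j)⁻¹ * k * c⁻¹ := by rw [e]; group
        rw [h2]
        exact S.Nx.mul_mem (S.Nx.mul_mem (S.Nx.inv_mem (S.Nx.pow_mem (S.Nx.pow_mem x_mem_Nx 3) j)) h1)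
          (S.Nx.inv_mem (cent_mem_Nx hc hcc))
      rw [e, U_Nx hB hr hz hzN, one_mul]
    · rintro ⟨j, c, ⟨hc, hcc⟩, e⟩ ⟨h, hh⟩
      show cj h (k : G) ∈ S.Nx
      obtain ⟨u, hu, k', hk', rfl⟩ := hdec h hh
      have hk : (k : G) ∈ S.Nx := by
        rw [e]; exact S.Nx.mul_mem (S.Nx.pow_mem (S.Nx.pow_mem x_mem_Nx 3) j) (cent_mem_Nx hc hcc)
      have hkc : cj k' (k : G) = cj k' ((S.x ^ 3) ^ j) * c := by
        rw [e, cj_mul', hcc.fix hk'.1]
      rw [cj_mul, hkc, cj_mul', hcc.fix (hUH u hu)]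
      rcases hk'.2 with h' | h'
      · rw [pow_fix (pow_fix h' 3) j, x3_U hB hr hu]
        exact S.Nx.mul_mem (S.Nx.pow_mem (S.Nx.pow_mem x_mem_Nx 3) j) (cent_mem_Nx hc hcc)
      · have e2 : cj k' ((S.x ^ 3) ^ j) = ((S.x ^ 3) ^ j)⁻¹ := by
          rw [← pow_mul]
          simp only [cj] at h' ⊢
          rw [← conj_pow, h', inv_pow]
        rw [e2, cj_inv', x3_U hB hr hu]
        exact S.Nx.mul_mem (S.Nx.inv_mem (S.Nx.pow_mem (S.Nx.pow_mem x_mem_Nx 3) j)) (cent_mem_Nx hc hcc)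
  -- the image is everything
  let xH : S.H := ⟨S.x, S.xH⟩
  let τH : S.H := ⟨τ, S.PH hτ⟩
  have hx1 : Φ xH ≠ 1 := by
    intro h
    obtain ⟨j, c, ⟨hc, hcc⟩, e⟩ := (hker xH).mp h
    apply x_r_ne hB hr
    have e' : S.x = (S.x ^ 3) ^ j * c := e
    rw [e', cj_mul, fix_r hB hr (S.Om_le hc)]
    exact cj_pow_of_fix (cube_fix hB hr (r_V hB hr)) j
  have hx3 : Φ xH ^ 3 = 1 := by
    rw [← map_pow, hker]
    exact ⟨1, 1, ⟨S.Om.one_mem, fun h _ => by simp⟩, by simp [xH]⟩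
  have hτ1 : Φ τH ≠ 1 := by
    intro h
    obtain ⟨j, c, ⟨hc, hcc⟩, e⟩ := (hker τH).mp h
    have h1 : (S.x ^ 3) ^ j ∈ S.P := by
      have e' : (S.x ^ 3) ^ j = τ * c⁻¹ := by
        rw [show τ = (S.x ^ 3) ^ j * c from e, mul_inv_cancel_right]
      rw [e']; exact S.P.mul_mem hτ (S.P.inv_mem (S.Om_le hc))
    have h2 : (S.x ^ 3) ^ j = 1 := pow_mem_P_eq_one h1 (by rw [← pow_mul S.x 3 j]; exact xpow_pow _)
    have e' : τ = c := by rw [show τ = (S.x ^ 3) ^ j * c from e, h2, one_mul]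
    exact hτQ (e' ▸ hB c hc.1)
  have hτ2 : Φ τH ^ 2 = 1 := by
    rw [← map_pow, hker]
    exact ⟨0, 1, ⟨S.Om.one_mem, fun h _ => by simp⟩, by simp [τH, pow_two, hττ]⟩
  let T : Subgroup (Equiv.Perm (S.H ⧸ NH)) := NH.map Φ
  have hxT : Φ xH ∈ T := Subgroup.mem_map_of_mem Φ (show (xH : S.H) ∈ NH from x_mem_Nx)
  have hτT : Φ τH ∈ T := Subgroup.mem_map_of_mem Φ (show (τH : S.H) ∈ NH from hτN)
  have h6 : 6 ∣ Nat.card T := by
    have : Fact (Nat.Prime 3) := ⟨Nat.prime_three⟩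
    have : Fact (Nat.Prime 2) := ⟨Nat.prime_two⟩
    have a := Subgroup.orderOf_dvd_natCard T hxT
    have b := Subgroup.orderOf_dvd_natCard T hτT
    rw [orderOf_eq_prime hx3 hx1] at a
    rw [orderOf_eq_prime hτ2 hτ1] at b
    exact Nat.Coprime.mul_dvd_of_dvd_of_dvd (by norm_num : Nat.Coprime 3 2) a b
  let g : U hB hr × T → Φ.range := fun a =>
    ⟨Φ ⟨a.1, hUH a.1 a.1.2⟩ * a.2.1, Φ.range.mul_mem ⟨_, rfl⟩
      (by obtain ⟨k, -, e⟩ := a.2.2; exact ⟨k, e⟩)⟩
  have hg : Function.Injective g := by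
    rintro ⟨a, s⟩ ⟨b, s'⟩ e
    have e' : Φ ⟨a, hUH a a.2⟩ * s.1 = Φ ⟨b, hUH b b.2⟩ * s'.1 := congrArg Subtype.val e
    have hfixT : ∀ s : T, s.1 (QuotientGroup.mk 1) = QuotientGroup.mk 1 := by
      rintro ⟨-, k, hk, rfl⟩
      show k • (QuotientGroup.mk 1 : S.H ⧸ NH) = QuotientGroup.mk 1
      rw [MulAction.Quotient.smul_mk, smul_eq_mul, mul_one, QuotientGroup.eq, mul_one]
      exact NH.inv_mem hk
    have hab : a = b := by
      apply hbase.1
      have h2 := congrArg (fun σ : Equiv.Perm (S.H ⧸ NH) => σ (QuotientGroup.mk 1)) e'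
      simp only [Equiv.Perm.mul_apply, hfixT] at h2
      simpa [Φ, base, MulAction.toPermHom_apply, MulAction.toPerm_apply,
        MulAction.Quotient.smul_mk, smul_eq_mul] using h2
    subst hab
    exact Prod.ext rfl (Subtype.ext (mul_left_cancel e'))
  have hcardΩ : Nat.card (S.H ⧸ NH) = 4 := by
    rw [← Nat.card_congr (Equiv.ofBijective base hbase), card_U hB hr]
  have hperm : Nat.card (Equiv.Perm (S.H ⧸ NH)) = 24 := by rw [Nat.card_perm, hcardΩ]; rfl
  have hsurj : Function.Surjective Φ := by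
    rw [← MonoidHom.range_eq_top]
    refine Subgroup.eq_top_of_le_card _ ?_
    rw [hperm]
    refine le_trans ?_ (Nat.card_le_card_of_injective g hg)
    rw [Nat.card_prod, card_U hB hr]
    have := Nat.le_of_dvd Nat.card_pos h6
    omega
  obtain ⟨eΩ⟩ : Nonempty ((S.H ⧸ NH) ≃ Fin 4) := ⟨Finite.equivFinOfCardEq hcardΩ⟩
  let Φ4 : S.H →* Equiv.Perm (Fin 4) := eΩ.permCongrHom.toMonoidHom.comp Φ
  have hΦ4 : Function.Surjective Φ4 := eΩ.permCongrHom.surjective.comp hsurj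
  have hker4 : ∀ k : S.H, Φ4 k = 1 ↔ Φ k = 1 := fun k => map_eq_one_iff _ eΩ.permCongrHom.injective
  -- the odd core
  have hodd : ∀ a : S.H, a ∈ oddCore ↥S.H ↔ ∃ j : ℕ, (a : G) = (S.x ^ 3) ^ j := by
    let K : Subgroup S.H := Subgroup.zpowers (xH ^ 3)
    have hKn : K.Normal := by
      refine ⟨fun a ha h => ?_⟩
      obtain ⟨k, rfl⟩ := Subgroup.mem_zpowers_iff.mp ha
      rw [← conj_zpow]
      refine Subgroup.zpow_mem _ ?_ k
      obtain ⟨u, hu, k', hk', e⟩ := hdec h h.2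
      have he : ((h * xH ^ 3 * h⁻¹ : S.H) : G) = cj (h : G) (S.x ^ 3) := rfl
      have hu3 : cj u (S.x ^ 3) = S.x ^ 3 := by simpa using x3_U hB hr hu 1
      rcases hk'.2 with h' | h'
      · refine Subgroup.mem_zpowers_iff.mpr ⟨1, Subtype.ext ?_⟩
        rw [zpow_one, he, e, cj_mul, pow_fix h', hu3]
        rfl
      · refine Subgroup.mem_zpowers_iff.mpr ⟨-1, Subtype.ext ?_⟩
        have e2 : cj k' (S.x ^ 3) = (S.x ^ 3)⁻¹ := by
          simp only [cj] at h' ⊢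
          rw [← conj_pow, h', inv_pow]
        rw [zpow_neg_one, he, e, cj_mul, e2, cj_inv', hu3]
        rfl
    have hKodd : Odd (Nat.card K) := by
      rw [Nat.card_zpowers]
      exact S.n_odd.of_dvd_nat (orderOf_dvd_of_pow_eq_one (Subtype.ext (by
        simpa [xH] using xpow_pow (S := S) 3)))
    intro a
    constructor
    · intro ha
      have hfix : ∀ u ∈ U hB hr, cj (a : G) u = u := by
        intro u hu
        have h1 : (a * ⟨u, hUH u hu⟩ * a⁻¹ * ⟨u, hUH u hu⟩ : S.H) ∈ oddCore ↥S.H := by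
          have hn : (oddCore ↥S.H).Normal := Cfsg.pPrimeCore_normal 2 _
          have h2 := (oddCore ↥S.H).mul_mem ha
            (hn.conj_mem _ ((oddCore ↥S.H).inv_mem ha) ⟨u, hUH u hu⟩)
          have e : (⟨u, hUH u hu⟩ : S.H)⁻¹ = ⟨u, hUH u hu⟩ :=
            Subtype.ext (V_inv hB (UU_V hB hr hu))
          rw [e] at h2
          simpa [mul_assoc] using h2
        have h3 : cj (a : G) u * u ∈ S.V :=
          S.V.mul_mem (S.V_normal a.2 (UU_V hB hr hu)) (UU_V hB hr hu)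
        have h4 : cj (a : G) u * u = 1 :=
          congrArg Subtype.val (eq_one_of_oddCore h1 (Subtype.ext (V_sq hB h3)))
        rw [eq_inv_of_mul_eq_one_left h4, V_inv hB (UU_V hB hr hu)]
      obtain ⟨j, q, hq, e⟩ := centralises_U hB hr a.2 hfix
      refine ⟨j, ?_⟩
      have hq' : (⟨q, S.QH hq⟩ : S.H) ∈ oddCore ↥S.H := by
        have e' : (⟨q, S.QH hq⟩ : S.H) = ((xH ^ 3) ^ j)⁻¹ * a :=
          Subtype.ext (by simp [xH, e])
        rw [e']
        exact (oddCore ↥S.H).mul_mem ((oddCore ↥S.H).inv_mem ((oddCore ↥S.H).pow_mem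
          (CfsgLib.Cores.le_oddCore hKodd (Subgroup.mem_zpowers _)) j)) ha
      have hq1 : q = 1 :=
        congrArg Subtype.val (eq_one_of_oddCore hq' (Subtype.ext (V_sq hB (Q_le_V hB hr q hq))))
      rw [e, hq1, mul_one]
    · rintro ⟨j, e⟩
      have e' : a = (xH ^ 3) ^ j := Subtype.ext (by simpa [xH] using e)
      rw [e']
      exact (oddCore ↥S.H).pow_mem (CfsgLib.Cores.le_oddCore hKodd (Subgroup.mem_zpowers _)) j
  rcases card_Q hB hr with ⟨hC, -⟩ | ⟨c, hc, hc1, hC, -⟩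
  · left
    have hk : oddCore ↥S.H = Φ4.ker := by
      ext a
      rw [MonoidHom.mem_ker, hker4, hker, hodd]
      refine ⟨fun ⟨j, e⟩ => ⟨j, 1, ⟨S.Om.one_mem, fun h _ => by simp⟩, by rw [mul_one, e]⟩, ?_⟩
      rintro ⟨j, d, hd, e⟩
      exact ⟨j, by rw [e, hC d hd, mul_one]⟩
    exact ⟨(QuotientGroup.quotientMulEquivOfEq hk).trans
      (QuotientGroup.quotientKerEquivOfSurjective Φ4 hΦ4)⟩
  · right
    -- a complement to `⟨c⟩`
    let M : Subgroup G := Subgroup.closure ((U hB hr : Set G) ∪ {S.x, τ})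
    let Pm : G → Prop := fun h => ∃ u ∈ U hB hr, ∃ i : ℕ, h = u * S.x ^ i ∨ h = u * S.x ^ i * τ
    have hτi : τ⁻¹ = τ := inv_eq_of_mul_eq_one_right hττ
    have hτxp : ∀ j : ℕ, τ * S.x ^ j = S.x⁻¹ ^ j * τ := by
      intro j
      have e : cj τ (S.x ^ j) = S.x⁻¹ ^ j := by
        simp only [cj] at hτx ⊢
        rw [← conj_pow, hτx]
      rw [← e, cj, inv_mul_cancel_right]
    have hxinv : ∀ j : ℕ, ∃ m : ℕ, S.x⁻¹ ^ j = S.x ^ m := by
      intro j
      obtain ⟨k, hk⟩ := S.n_odd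
      refine ⟨2 * k * j, ?_⟩
      rw [inv_pow, pow_mul]
      apply inv_eq_of_mul_eq_one_left
      rw [← (Commute.pow_self S.x (2 * k)).mul_pow, ← pow_succ, ← hk, S.x_pow, one_pow]
    have stepU : ∀ h, Pm h → ∀ u ∈ U hB hr, Pm (h * u) := by
      rintro h ⟨v, hv, i, rfl | rfl⟩ u hu
      · exact ⟨_, (U hB hr).mul_mem hv (U_normal hB hr (S.H.pow_mem S.xH i) hu), i,
          Or.inl (by simp [cj, mul_assoc])⟩
      · exact ⟨_, (U hB hr).mul_mem hv (U_normal hB hr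
          (S.H.mul_mem (S.H.pow_mem S.xH i) (S.PH hτ)) hu), i, Or.inr (by simp [cj, mul_assoc])⟩
    have stepx : ∀ h, Pm h → ∀ j : ℕ, Pm (h * S.x ^ j) := by
      rintro h ⟨v, hv, i, rfl | rfl⟩ j
      · exact ⟨v, hv, i + j, Or.inl (by rw [pow_add, mul_assoc])⟩
      · obtain ⟨m, hm⟩ := hxinv j
        exact ⟨v, hv, i + m, Or.inr (by rw [mul_assoc _ τ, hτxp, hm, pow_add]; simp only [mul_assoc])⟩
    have stept : ∀ h, Pm h → Pm (h * τ) := by
      rintro h ⟨v, hv, i, rfl | rfl⟩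
      · exact ⟨v, hv, i, Or.inr rfl⟩
      · exact ⟨v, hv, i, Or.inl (by rw [mul_assoc _ τ τ, hττ, mul_one])⟩
    have hM : ∀ h ∈ M, Pm h := by
      intro h hh
      induction hh using Subgroup.closure_induction_right with
      | one => exact ⟨1, Or.inl rfl, 0, Or.inl (by simp)⟩
      | mul_right a _ b hb ih =>
        rcases hb with hb | rfl | rfl
        · exact stepU a ih b hb
        · simpa using stepx a ih 1
        · exact stept a ih
      | mul_inv_cancel a _ b hb ih =>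
        rcases hb with hb | rfl | rfl
        · exact stepU a ih _ ((U hB hr).inv_mem hb)
        · obtain ⟨m, hm⟩ := hxinv 1
          have h2 := stepx a ih m
          rwa [← hm, pow_one] at h2
        · rw [hτi]; exact stept a ih
    have hcM : c ∉ M := by
      intro h
      have hcP : c ∈ S.P := S.Om_le hc.1
      obtain ⟨u, hu, i, e | e⟩ := hM c h
      · have h1 : S.x ^ i ∈ S.P := by
          rw [show S.x ^ i = u⁻¹ * c by rw [e, inv_mul_cancel_left]]
          exact S.P.mul_mem (S.P.inv_mem (V_le_P hB (UU_V hB hr hu))) hcP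
        rw [pow_mem_P_eq_one h1 (xpow_pow i), mul_one] at e
        exact hc1 (U_cent hB hr (e ▸ hu) hc.2)
      · have h1 : S.x ^ i ∈ S.P := by
          rw [show S.x ^ i = u⁻¹ * c * τ⁻¹ by rw [e]; group]
          exact S.P.mul_mem (S.P.mul_mem (S.P.inv_mem (V_le_P hB (UU_V hB hr hu))) hcP) (S.P.inv_mem hτ)
        rw [pow_mem_P_eq_one h1 (xpow_pow i), mul_one] at e
        refine hτQ ?_
        rw [show τ = u⁻¹ * c by rw [e, inv_mul_cancel_left]]
        exact S.Q.mul_mem (S.Q.inv_mem (V_le_Q hB (UU_V hB hr hu))) (hB c hc.1.1)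
    have hMU : ∀ u ∈ U hB hr, u ∈ M := fun u hu => Subgroup.subset_closure (Or.inl hu)
    have hMx : S.x ∈ M := Subgroup.subset_closure (Or.inr (Or.inl rfl))
    have hMt : τ ∈ M := Subgroup.subset_closure (Or.inr (Or.inr rfl))
    have hcc : c * c = 1 := hc.1.2
    have hsplit : ∀ h ∈ S.H, h ∈ M ∨ h * c ∈ M := by
      intro h hh
      obtain ⟨u, hu, i, d, hd, hdd, e⟩ := H_decomp hB hr hh hτ hτQ
      have m1 : u * S.x ^ i ∈ M := M.mul_mem (hMU u hu) (M.pow_mem hMx i)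
      rcases hC d ⟨hd, hdd⟩ with rfl | rfl
      · left
        rcases e with e | e <;> rw [e, mul_one]
        · exact m1
        · rw [← mul_assoc]; exact M.mul_mem m1 hMt
      · right
        have hct : τ * d = d * τ := hdd τ (S.PH hτ)
        rcases e with e | e <;> rw [e]
        · rw [mul_assoc, mul_assoc _ d d, hcc, mul_one]; exact m1
        · rw [show u * (S.x ^ i * d * τ) * d = u * S.x ^ i * (d * (τ * d)) by simp only [mul_assoc],
            hct, ← mul_assoc d d, hcc, one_mul]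
          exact M.mul_mem m1 hMt
    let MH : Subgroup S.H := M.subgroupOf S.H
    let cH : S.H := ⟨c, S.PH (S.Om_le hc.1)⟩
    have hidx : MH.index = 2 := by
      rw [Subgroup.index_eq_two_iff]
      refine ⟨cH, fun b => ?_⟩
      rcases hsplit b b.2 with h | h
      · refine Or.inr ⟨h, fun h' => hcM ?_⟩
        have h'' : (b : G) * c ∈ M := h'
        rw [show c = (b : G)⁻¹ * ((b : G) * c) by group]
        exact M.mul_mem (M.inv_mem h) h''
      · refine Or.inl ⟨h, fun h' => hcM ?_⟩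
        rw [show c = (b : G)⁻¹ * ((b : G) * c) by group]
        exact M.mul_mem (M.inv_mem h') h
    let ε : S.H →* Multiplicative (ZMod 2) :=
      { toFun := fun h => if h ∈ MH then 1 else Multiplicative.ofAdd 1
        map_one' := by simp
        map_mul' := fun a b => by
          have := Subgroup.mul_mem_iff_of_index_two hidx (a := a) (b := b)
          by_cases ha : a ∈ MH <;> by_cases hb : b ∈ MH <;> simp [this, ha, hb] <;> decide }
    have hεiff : ∀ h, ε h = 1 ↔ h ∈ MH := by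
      intro h
      show (if h ∈ MH then (1 : Multiplicative (ZMod 2)) else Multiplicative.ofAdd 1) = 1 ↔ h ∈ MH
      by_cases hh : h ∈ MH <;> simp [hh]
    let Ψ : S.H →* Equiv.Perm (Fin 4) × Multiplicative (ZMod 2) := Φ4.prod ε
    have hΨ : Function.Surjective Ψ := by
      rintro ⟨σ, e⟩
      obtain ⟨h, rfl⟩ := hΦ4 σ
      by_cases he : ε h = e
      · exact ⟨h, Prod.ext rfl he⟩
      · have hΦc : Φ4 cH = 1 := by
          rw [hker4, hker]
          exact ⟨0, c, hc, by simp [cH]⟩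
        have hεc : ε cH ≠ 1 := fun h' => hcM ((hεiff cH).mp h')
        refine ⟨h * cH, Prod.ext ?_ ?_⟩
        · show Φ4 (h * cH) = Φ4 h
          rw [map_mul, hΦc, mul_one]
        · show ε (h * cH) = e
          rw [map_mul]
          revert he hεc
          generalize ε h = a; generalize ε cH = b
          revert a b e
          decide
    have hk : oddCore ↥S.H = Ψ.ker := by
      ext a
      rw [MonoidHom.mem_ker, hodd]
      constructor
      · rintro ⟨j, e⟩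
        refine Prod.ext ?_ ?_
        · exact (hker4 a).mpr ((hker a).mpr ⟨j, 1, ⟨S.Om.one_mem, fun h _ => by simp⟩, by rw [mul_one, e]⟩)
        · exact (hεiff a).mpr (show (a : G) ∈ M by rw [e]; exact M.pow_mem (M.pow_mem hMx 3) j)
      · intro h
        obtain ⟨j, d, hd, e⟩ := (hker a).mp ((hker4 a).mp (congrArg Prod.fst h))
        rcases hC d hd with rfl | rfl
        · exact ⟨j, by rw [e, mul_one]⟩
        · exfalso
          apply hcM
          have ha : (a : G) ∈ M := (hεiff a).mp (congrArg Prod.snd h)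
          rw [show d = ((S.x ^ 3) ^ j)⁻¹ * (a : G) by rw [e, inv_mul_cancel_left]]
          exact M.mul_mem (M.inv_mem (M.pow_mem (M.pow_mem hMx 3) j)) ha
    exact ⟨(QuotientGroup.quotientMulEquivOfEq hk).trans
      (QuotientGroup.quotientKerEquivOfSurjective Ψ hΨ)⟩

omit hB hr

theorem conclusion (S : Setup G) :
    (Nat.card S.P = 4 ∨ Nat.card S.P = 8 ∨ Nat.card S.P = 16) ∧
    (Nonempty (↥S.H ⧸ oddCore ↥S.H ≃* Multiplicative (ZMod 2) × Multiplicative (ZMod 2)) ∨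
     Nonempty (↥S.H ⧸ oddCore ↥S.H ≃* Equiv.Perm (Fin 4)) ∨
     Nonempty (↥S.H ⧸ oddCore ↥S.H ≃* Equiv.Perm (Fin 4) × Multiplicative (ZMod 2))) := by
  by_cases hB : S.ZinQ
  · obtain ⟨r, hr⟩ := exists_transvection hB
    exact ⟨Or.inr (card_P_B hB hr), Or.inr (caseB hB hr)⟩
  · exact ⟨Or.inl (caseA hB).1, Or.inl (caseA hB).2⟩

end Setup

end CfsgLib.PushUp.SmallDih
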