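import Cfsg.Agent.Lib.PushUp.SmallDihedral.Orbit

/-!
No conjugate of `V` at distance at least two is the first to leave `Q`.
-/

set_option autoImplicit false
set_option linter.unusedSectionVars false

namespace CfsgLib.PushUp.SmallDih

variable {G : Type*} [Group G] [Finite G]

namespace Setup

variable {S : Setup G}

/-- `W = ⟨(V^y)^H⟩ V` -/
def W (S : Setup G) : Subgroup G :=
  Subgroup.closure ({u | ∃ h ∈ S.H, ∃ v ∈ S.V, u = cj (h * S.y) v} ∪ (S.V : Set G))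

theorem V_le_W : S.V ≤ S.W := fun _ hv => Subgroup.subset_closure (Or.inr hv)

theorem mem_W {h v : G} (hh : h ∈ S.H) (hv : v ∈ S.V) : cj (h * S.y) v ∈ S.W :=
  Subgroup.subset_closure (Or.inl ⟨h, hh, v, hv, rfl⟩)

theorem W_normal {h : G} (hh : h ∈ S.H) {w : G} (hw : w ∈ S.W) : cj h w ∈ S.W := by
  refine cj_closure ?_ hw
  rintro u (⟨k, hk, v, hv, rfl⟩ | hu)
  · rw [← cj_mul, ← mul_assoc]; exact mem_W (S.H.mul_mem hh hk) hv
  · exact V_le_W (S.V_normal hh hu)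

theorem step_hy {h : G} (hh : h ∈ S.H) : S.Step 1 (h * S.y) :=
  S.step_mul_left hh (S.step_one S.isE_y)

theorem ee_V (hB : S.ZinQ) {e e' : G} (he : S.IsE e) (he' : S.IsE e') {v : G} (hv : v ∈ S.V) :
    cj e (cj e' v) ∈ S.V := by
  have hyy : ∀ v ∈ S.V, cj S.y (cj S.y v) ∈ S.V := fun v hv => by
    obtain ⟨p, hp, h⟩ := S.y2
    rw [h v (V_le_P hB hv)]; exact S.V_normal (S.PH hp) hv
  rcases he with rfl | rfl <;> rcases he' with rfl | rfl
  · exact hyy v hv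
  · rwa [cj_cj_inv]
  · rwa [cj_inv_cj]
  · obtain ⟨p, hp, h⟩ := S.y2
    have h1 : cj p⁻¹ v ∈ S.V := S.V_normal (S.PH (S.P.inv_mem hp)) hv
    have h2 := h _ (V_le_P hB h1)
    rw [cj_cj_inv] at h2
    rw [← h2, cj_inv_cj, cj_inv_cj]
    exact h1

section
variable (hB : S.ZinQ) {r : G} (hr : S.IsTr r)
include hB hr

theorem W_le_Q (h1 : S.InQ 1) : S.W ≤ S.Q := by
  unfold W
  rw [Subgroup.closure_le]
  rintro u (⟨h, hh, v, hv, rfl⟩ | hu)
  · exact h1 _ (step_hy hh) v hv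
  · exact V_le_Q hB hu

theorem W_norm_V (h1 : S.InQ 1) {w z : G} (hw : w ∈ S.W) (hz : z ∈ S.V) : cj w z ∈ S.V :=
  S.V_normal (S.QH (W_le_Q hB hr h1 hw)) hz

theorem Q_mod_gen {q : G} (hq : q ∈ S.Q) {h v : G} (hh : h ∈ S.H) (hv : v ∈ S.V) :
    Cong S.V (cj (h * S.y) v) (cj q (cj (h * S.y) v)) := by
  have hp : cj S.y⁻¹ (cj h⁻¹ q) ∈ S.P := S.eP S.isE_yinv (S.QP (S.Qn _ (S.H.inv_mem hh) _ hq))
  have e : cj q (cj (h * S.y) v) = cj (h * S.y) (cj (cj S.y⁻¹ (cj h⁻¹ q)) v) := by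
    simp [cj, mul_assoc]
  rw [e]
  rcases P_on_V hB hr hp hv with h' | h' <;> rw [h']
  · exact Cong.refl' _ _
  · rw [cj_mul']
    unfold Cong
    rw [inv_mul_cancel_left, cj_mul]
    exact S.V_normal hh (S.Om_le_V (S.e_Om S.isE_y hr.1))

theorem Q_mod (h1 : S.InQ 1) {q : G} (hq : q ∈ S.Q) {w : G} (hw : w ∈ S.W) :
    Cong S.V w (cj q w) := by
  induction hw using Subgroup.closure_induction with
  | mem u hu =>
    rcases hu with ⟨h, hh, v, hv, rfl⟩ | hu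
    · exact Q_mod_gen hB hr hq hh hv
    · rw [cjQ_fix hB hq hu]; exact Cong.refl' _ _
  | one => rw [cj_one']; exact Cong.refl' _ _
  | mul a b ha hb iha ihb =>
    rw [cj_mul']
    exact (ihb.mul_left' a).trans' (iha.mul_right'
      (fun z hz => W_norm_V hB hr h1 (S.W.inv_mem (W_normal (S.QH hq) hb)) hz))
  | inv a ha iha =>
    rw [cj_inv']
    have h2 := iha.symm'
    unfold Cong at h2 ⊢
    have := W_norm_V hB hr h1 ha h2
    simpa [cj, mul_assoc] using this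

theorem W_sq (h1 : S.InQ 1) {w : G} (hw : w ∈ S.W) : w * w ∈ S.V := by
  induction hw using Subgroup.closure_induction with
  | mem u hu =>
    rcases hu with ⟨h, hh, v, hv, rfl⟩ | hu
    · rw [← cj_mul', V_sq hB hv, cj_one']; exact S.V.one_mem
    · exact S.V.mul_mem hu hu
  | one => simp
  | mul a b ha hb iha ihb =>
    have h2 : a⁻¹ * cj b a ∈ S.V := Q_mod hB hr h1 (W_le_Q hB hr h1 hb) ha
    have e : a * b * (a * b) = a * a * (a⁻¹ * cj b a) * (b * b) := by simp [cj, mul_assoc]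
    rw [e]
    exact S.V.mul_mem (S.V.mul_mem iha h2) ihb
  | inv a ha iha => rw [← mul_inv_rev]; exact S.V.inv_mem iha

theorem V_le_Q1 (h1 : S.InQ 1) : S.V ≤ S.Q1 := fun v hv =>
  S.mem_Q1.mpr (h1 _ (S.step_one S.isE_yinv) v hv)

variable {c : ℕ} (hmin : ∀ j < c + 2, S.InQ j)
include hmin

theorem inQ1 : S.InQ 1 := hmin 1 (by omega)

/-- critical data: `g = e m f` moves an element of `V` out of `Q` -/
def IsCrit (S : Setup G) (c : ℕ) (e m f v : G) : Prop :=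
  S.IsE e ∧ S.Step c m ∧ S.IsE f ∧ v ∈ S.V ∧ cj (e * m * f) v ∉ S.Q

variable {e m f v : G} (hc : S.IsCrit c e m f v)
include hc

theorem crit_image {w : G} (hw : w ∈ S.V) : cj (e * m * f) w ∈ S.Q1 := by
  rw [mul_assoc, cj_mul]
  refine (S.e_mem_Q1_iff hc.1).mpr ?_
  exact hmin (c + 1) (by omega) _ (S.step_mul hc.2.1 (S.step_one hc.2.2.1)) w hw

theorem crit_tP : cj (e * m * f) v ∈ S.P := S.Q1P (crit_image hB hr hmin hc hc.2.2.2.1)

theorem crit_qinv : S.Step (c + 1) (e * m)⁻¹ :=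
  S.step_inv (by simpa [Nat.add_comm] using S.step_mul (S.step_one hc.1) hc.2.1)

theorem crit_inv_P {w : G} (hw : w ∈ S.V) : cj (e * m * f)⁻¹ w ∈ S.P := by
  rw [mul_inv_rev, cj_mul]
  exact S.eP (IsE.inv S hc.2.2.1) (S.QP (hmin (c + 1) (by omega) _ (crit_qinv hB hr hmin hc) w hw))

theorem crit_symm : ∃ w ∈ S.V, cj (e * m * f)⁻¹ w ∉ S.Q := by
  by_contra h
  push Not at h
  obtain ⟨w, hw, hne⟩ := not_fix hB (crit_tP hB hr hmin hc) hc.2.2.2.2
  apply hne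
  have h1 := congrArg (cj (e * m * f)) (Q_commute_V hB (h w hw) hc.2.2.2.1)
  rw [cj_mul', cj_mul', cj_cj_inv] at h1
  exact cj_eq_self.mpr h1.symm

theorem crit_conj {a : G} (ha : cj (e * m * f)⁻¹ a ∈ S.P) :
    cj a (cj (e * m * f) v) = cj (e * m * f) v ∨
      cj a (cj (e * m * f) v) = cj (e * m * f) v * cj (e * m * f) r := by
  have e1 : cj a (cj (e * m * f) v) = cj (e * m * f) (cj (cj (e * m * f)⁻¹ a) v) := by
    simp [cj, mul_assoc]
  rw [e1]
  rcases P_on_V hB hr ha hc.2.2.2.1 with h | h <;> rw [h]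
  · exact Or.inl rfl
  · exact Or.inr (cj_mul' _ _ _)

theorem crit_t_sq : cj (e * m * f) v * cj (e * m * f) v = 1 := by
  rw [← cj_mul', V_sq hB hc.2.2.2.1, cj_one']

theorem crit_r : cj (e * m * f) r = r := by
  set t := cj (e * m * f) v with ht_def
  have htP := crit_tP hB hr hmin hc
  obtain ⟨w, hw, hne⟩ := not_fix hB htP hc.2.2.2.2
  have hwr := (t_on_V hB hr htP hc.2.2.2.2 hw).resolve_left hne
  rcases crit_conj hB hr hmin hc (crit_inv_P hB hr hmin hc hw) with h | h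
  · exact absurd (cj_eq_self.mpr (cj_eq_self.mp h).symm) hne
  · rw [← ht_def] at h hne hwr
    have htt : t * t = 1 := crit_t_sq hB hr hmin hc
    have e1 : cj (e * m * f) r = t⁻¹ * cj w t := by rw [h, inv_mul_cancel_left]
    rw [e1, inv_eq_of_mul_eq_one_right htt]
    have hti : t⁻¹ = t := inv_eq_of_mul_eq_one_right htt
    calc t * cj w t = t * w * t⁻¹ * w⁻¹ := by rw [hti]; simp [cj, mul_assoc]
      _ = cj t w * w⁻¹ := by simp [cj, mul_assoc]
      _ = r := by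
        rw [hwr, V_inv hB hw, mul_assoc, V_comm hB (r_V hB hr) hw, ← mul_assoc, V_sq hB hw, one_mul]

theorem crit_A {w : G} (hw : w ∈ S.W) (hA : cj (e * m)⁻¹ w ∈ S.Q) :
    Cong S.V w (cj (cj (e * m * f) v) w) := by
  have h1 := inQ1 hB hr hmin
  have ha : cj (e * m * f)⁻¹ w ∈ S.P := by
    rw [mul_inv_rev, cj_mul]; exact S.eP (IsE.inv S hc.2.2.1) (S.QP hA)
  have hrw : r * w = w * r := (hr.1.1.2 w (S.QP (W_le_Q hB hr h1 hw))).symm
  have htt := crit_t_sq hB hr hmin hc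
  rcases crit_conj hB hr hmin hc ha with h | h
  · rw [cj_eq_self.mpr (cj_eq_self.mp h).symm]; exact Cong.refl' _ _
  · rw [crit_r hB hr hmin hc] at h
    set t := cj (e * m * f) v with ht_def
    have h2 : cj t w = w * r := by
      have hti : t⁻¹ = t := inv_eq_of_mul_eq_one_right htt
      calc cj t w = t * cj w t * w := by rw [cj, cj, hti]; group
        _ = r * w := by rw [h, ← mul_assoc t t, htt, one_mul]
        _ = w * r := hrw
    rw [h2]
    unfold Cong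
    rw [inv_mul_cancel_left]
    exact r_V hB hr

theorem crit_exists : ∃ h0 ∈ S.H, ∃ v0 ∈ S.V, cj (e * m)⁻¹ (cj (h0 * S.y) v0) ∉ S.Q := by
  by_contra h
  push Not at h
  have h1 := inQ1 hB hr hmin
  set t := cj (e * m * f) v with ht_def
  have htP := crit_tP hB hr hmin hc
  let K : Subgroup G :=
    { carrier := {k | k ∈ S.H ∧ ∀ h ∈ S.H, ∀ v ∈ S.V,
        Cong S.V (cj (h * S.y) v) (cj k (cj (h * S.y) v))}
      one_mem' := ⟨S.H.one_mem, fun _ _ _ _ => by rw [cj_one]; exact Cong.refl' _ _⟩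
      mul_mem' := by
        rintro a b ⟨ha, ha'⟩ ⟨hb, hb'⟩
        refine ⟨S.H.mul_mem ha hb, fun h hh v hv => ?_⟩
        rw [cj_mul a b]
        exact (ha' h hh v hv).trans' ((hb' h hh v hv).conj' (fun z hz => S.V_normal ha hz))
      inv_mem' := by
        rintro a ⟨ha, ha'⟩
        refine ⟨S.H.inv_mem ha, fun h hh v hv => ?_⟩
        have := (ha' h hh v hv).conj' (g := a⁻¹) (fun z hz => S.V_normal (S.H.inv_mem ha) hz)
        rw [cj_inv_cj] at this
        exact this.symm' }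
  have hHK : S.H ≤ K := by
    refine S.gen htP hc.2.2.2.2 K (fun q hq => ⟨S.QH hq, fun h hh v hv => Q_mod_gen hB hr hq hh hv⟩)
      ⟨S.PH htP, fun k hk v' hv' => crit_A hB hr hmin hc (mem_W hk hv') (h k hk v' hv')⟩
      ⟨S.H.mul_mem (S.H.mul_mem S.xH (S.PH htP)) (S.H.inv_mem S.xH), fun k hk v' hv' => ?_⟩
    have hk' : S.x⁻¹ * k ∈ S.H := S.H.mul_mem (S.H.inv_mem S.xH) hk
    have h2 := (crit_A hB hr hmin hc (mem_W hk' hv') (h _ hk' v' hv')).conj' (g := S.x)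
      (fun z hz => S.V_normal S.xH hz)
    simpa [cj, mul_assoc, ht_def] using h2
  let U : Subgroup G := Subgroup.closure ((S.V : Set G) ∪ {u | ∃ v ∈ S.V, u = cj S.y v})
  have hU : U = ⊥ := by
    refine S.core U ?_ ?_ ?_
    · rw [Subgroup.closure_le]
      rintro u (hu | ⟨v, hv, rfl⟩)
      · exact V_le_P hB hu
      · exact S.yP _ (V_le_P hB hv)
    · intro k hk z hz
      refine cj_closure ?_ hz
      rintro u (hu | ⟨v, hv, rfl⟩)
      · exact Subgroup.subset_closure (Or.inl (S.V_normal hk hu))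
      · have h2 := (hHK hk).2 1 S.H.one_mem v hv
        rw [one_mul] at h2
        have := U.mul_mem (Subgroup.subset_closure (Or.inr ⟨v, hv, rfl⟩) : cj S.y v ∈ U)
          (Subgroup.subset_closure (Or.inl h2))
        rwa [mul_inv_cancel_left] at this
    · intro z hz
      refine cj_closure ?_ hz
      rintro u (hu | ⟨v, hv, rfl⟩)
      · exact Subgroup.subset_closure (Or.inr ⟨u, hu, rfl⟩)
      · exact Subgroup.subset_closure (Or.inl (ee_V hB S.isE_y S.isE_y hv))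
  refine S.Om_ne_bot (le_bot_iff.mp (le_trans ?_ hU.le))
  exact fun z hz => Subgroup.subset_closure (Or.inl (S.Om_le_V hz))

/-- elements of the stabiliser of `r` fix `V^y` modulo `V` -/
theorem class_mod {h w : G} (hh : h ∈ S.H) (e0 : cj h r = r) (hw : w ∈ S.V) :
    Cong S.V (cj S.y w) (cj (h * S.y) w) := by
  have h1 := inQ1 hB hr hmin
  set t := cj (e * m * f) v with ht_def
  have htP := crit_tP hB hr hmin hc
  obtain ⟨h2, hh2, e2, he2, g2, hg2, eq2⟩ := S.step_front (crit_qinv hB hr hmin hc)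
  have himg : ∀ w ∈ S.W, cj (e2 * g2) w ∈ S.Q1 := by
    intro w hw
    refine cj_closure ?_ hw
    rintro u (⟨k, hk, z, hz, rfl⟩ | hu)
    · rw [cj_mul e2 g2]
      refine (S.e_mem_Q1_iff he2).mpr ?_
      rw [← cj_mul]
      exact hmin (c + 1) (by omega) _ (S.step_mul hg2 (step_hy hk)) z hz
    · rw [cj_mul e2 g2]
      exact (S.e_mem_Q1_iff he2).mpr (hmin c (by omega) _ hg2 u hu)
  have hAiff : ∀ w, cj (e * m)⁻¹ w ∈ S.Q ↔ cj (e2 * g2) w ∈ S.Q := by
    intro w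
    rw [eq2, mul_assoc, cj_mul h2]
    exact ⟨fun h' => by simpa using S.Qn _ (S.H.inv_mem hh2) _ h', S.Qn h2 hh2 _⟩
  obtain ⟨h0, hh0, v0, hv0, hw0A⟩ := crit_exists hB hr hmin hc
  set w0 := cj (h0 * S.y) v0 with hw0_def
  have hw0 : w0 ∈ S.W := mem_W hh0 hv0
  have htW : ∀ w ∈ S.W, cj t w ∈ S.W := fun w hw => W_normal (S.PH htP) hw
  have hVn : ∀ s ∈ S.W, ∀ z ∈ S.V, cj s⁻¹ z ∈ S.V :=
    fun s hs z hz => W_norm_V hB hr h1 (S.W.inv_mem hs) hz
  have hc3 := cube_mod (S := S) (N := S.V) (W := S.W) (fun h hh w hw => W_normal hh hw)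
    (fun h hh z hz => S.V_normal hh hz) (fun w hw z hz => W_norm_V hB hr h1 hw hz)
    (fun w hw => W_sq hB hr h1 hw) (fun q hq w hw => Q_mod hB hr h1 hq hw) htP hc.2.2.2.2
    (p := w0⁻¹ * cj t w0) (S.W.mul_mem (S.W.inv_mem hw0) (htW w0 hw0)) (fun w hw => by
      by_cases hA : cj (e * m)⁻¹ w ∈ S.Q
      · exact Or.inl (crit_A hB hr hmin hc hw hA)
      · right
        have haA : cj (e * m)⁻¹ (w * w0⁻¹) ∈ S.Q := by
          rw [hAiff, cj_mul', cj_inv']
          refine S.idx _ (S.Q1P (himg w hw)) _ (S.P.inv_mem (S.Q1P (himg w0 hw0)))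
            (fun h' => hA ((hAiff w).mpr h')) (fun h' => hw0A ((hAiff w0).mpr ?_))
          simpa using S.Q.inv_mem h'
        have ha := (crit_A hB hr hmin hc (S.W.mul_mem hw (S.W.inv_mem hw0)) haA).mul_right'
          (s := cj t w0) (hVn _ (htW w0 hw0))
        rw [← cj_mul', inv_mul_cancel_right, mul_assoc] at ha
        exact ha)
  obtain ⟨j, p, hp, rfl⟩ := stab_r hB hr hh e0
  have hyw : cj S.y w ∈ S.W := by simpa using mem_W S.H.one_mem hw
  have h3 : Cong S.V (cj S.y w) (cj p (cj S.y w)) := by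
    have e3 : cj p (cj S.y w) = cj S.y (cj (cj S.y⁻¹ p) w) := by simp [cj, mul_assoc]
    rw [e3]
    rcases P_on_V hB hr (S.eP S.isE_yinv hp) hw with h' | h' <;> rw [h']
    · exact Cong.refl' _ _
    · rw [cj_mul']
      unfold Cong
      rw [inv_mul_cancel_left]
      exact S.Om_le_V (S.e_Om S.isE_y hr.1)
  have hpow : ∀ (j : ℕ) (u : G), u ∈ S.W → Cong S.V u (cj ((S.x ^ 3) ^ j) u) := by
    intro j
    induction j with
    | zero => intro u _; rw [pow_zero, cj_one]; exact Cong.refl' _ _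
    | succ j ih =>
      intro u hu
      rw [pow_succ', cj_mul (S.x ^ 3)]
      exact (ih u hu).trans' (hc3 _ (W_normal (S.H.pow_mem (S.H.pow_mem S.xH 3) j) hu))
  rw [mul_assoc, cj_mul ((S.x ^ 3) ^ j), cj_mul p]
  exact h3.trans' (hpow j _ (W_normal (S.PH hp) hyw))

theorem crit_h0 {h0 v0 : G} (hh0 : h0 ∈ S.H) (hv0 : v0 ∈ S.V)
    (hX : cj (e * m)⁻¹ (cj (h0 * S.y) v0) ∉ S.Q) : cj h0 r ≠ r := by
  intro h
  apply hX
  have hd := class_mod hB hr hmin hc hh0 h hv0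
  have h2 : cj (e * m)⁻¹ ((cj S.y v0)⁻¹ * cj (h0 * S.y) v0) ∈ S.Q :=
    hmin (c + 1) (by omega) _ (crit_qinv hB hr hmin hc) _ hd
  have h3 : cj (e * m)⁻¹ (cj S.y v0) ∈ S.Q := by
    rw [mul_inv_rev, cj_mul]
    exact hmin c (by omega) _ (S.step_inv hc.2.1) _ (ee_V hB (IsE.inv S hc.1) S.isE_y hv0)
  have := S.Q.mul_mem h3 h2
  rwa [← cj_mul', mul_inv_cancel_left] at this

theorem crit_next {h0 v0 : G} (hh0 : h0 ∈ S.H) (hv0 : v0 ∈ S.V)
    (hX : cj (e * m)⁻¹ (cj (h0 * S.y) v0) ∉ S.Q) {h2 e2 g2 : G} (hh2 : h2 ∈ S.H) (he2 : S.IsE e2)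
    (hg2 : S.Step c g2) (eq2 : (e * m)⁻¹ = h2 * e2 * g2) :
    S.IsCrit c e2 (g2 * h0) S.y v0 ∧ cj (h0 * S.y) r = cj (e * m) (cj h2 r) := by
  have hc2 : S.IsCrit c e2 (g2 * h0) S.y v0 := by
    refine ⟨he2, ?_, S.isE_y, hv0, fun h => hX ?_⟩
    · simpa using S.step_mul hg2 (Step.base (S := S) hh0)
    · rw [eq2, ← cj_mul, show h2 * e2 * g2 * (h0 * S.y) = h2 * (e2 * (g2 * h0) * S.y) by group,
        cj_mul h2]
      exact S.Qn h2 hh2 _ h
  refine ⟨hc2, ?_⟩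
  have h := crit_r hB hr hmin hc2
  have e3 : h0 * S.y = e * m * (h2 * (e2 * (g2 * h0) * S.y)) := by
    rw [show h2 * (e2 * (g2 * h0) * S.y) = h2 * e2 * g2 * (h0 * S.y) by group, ← eq2,
      mul_inv_cancel_left]
  conv_lhs => rw [e3, cj_mul (e * m), cj_mul h2, h]

theorem crit_commute {u : G} (hu : u ∈ S.V) (h : cj (e * m * f)⁻¹ u ∈ S.Q) : u ∈ S.Om := by
  refine mem_Om_of_fix hB (crit_tP hB hr hmin hc) hc.2.2.2.2 hu ?_
  have h1 := congrArg (cj (e * m * f)) (Q_commute_V hB h hc.2.2.2.1)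
  rw [cj_mul', cj_mul', cj_cj_inv] at h1
  exact cj_eq_self.mpr h1.symm

end

section
variable (hB : S.ZinQ) {r : G} (hr : S.IsTr r)
include hB hr

theorem no_crit_sym {c : ℕ} (hmin : ∀ j < c + 2, S.InQ j) {e m f v : G}
    (hc : S.IsCrit c e m f v) (hy : cj S.y r = r) : False := by
  obtain ⟨h0, hh0, v0, hv0, hX⟩ := crit_exists hB hr hmin hc
  obtain ⟨h2, hh2, e2, he2, g2, hg2, eq2⟩ := S.step_front (crit_qinv hB hr hmin hc)
  obtain ⟨-, h1⟩ := crit_next hB hr hmin hc hh0 hv0 hX hh2 he2 hg2 eq2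
  rw [cj_mul h0, hy] at h1
  refine (r_orbit hB hr hh0).resolve_left (crit_h0 hB hr hmin hc hh0 hv0 hX)
    (crit_commute hB hr hmin hc (S.V_normal hh0 (r_V hB hr)) ?_)
  rw [h1, mul_inv_rev, ← cj_mul, inv_mul_cancel_right]
  exact hmin 1 (by omega) _ (S.step_one (IsE.inv S hc.2.2.1)) _ (S.V_normal hh2 (r_V hB hr))

theorem no_crit_asym {c : ℕ} (hmin : ∀ j < c + 3, S.InQ j) {e m f v : G}
    (hc : S.IsCrit (c + 1) e m f v) (hC : S.Cent (cj S.y r)) : False := by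
  have hyC : cj S.y (cj S.y r) = r := S.cjy_cjy_Om hr.1.1
  obtain ⟨he, hm, hf, hv, hnot⟩ := id hc
  obtain ⟨k0, hk0, f0, hf0, m0, hm0, em⟩ := S.step_back hm
  obtain ⟨h0, hh0, v0, hv0, hX⟩ := crit_exists hB hr hmin hc
  obtain ⟨h2, hh2, e2, he2, g2, hg2, eq2⟩ := S.step_front (crit_qinv hB hr hmin hc)
  obtain ⟨hc2, -⟩ := crit_next hB hr hmin hc hh0 hv0 hX hh2 he2 hg2 eq2
  obtain ⟨w, hw, hwQ⟩ := crit_symm hB hr hmin hc2
  have hm3 : S.Step (c + 1) (h0⁻¹ * e * m0) := by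
    rw [Nat.add_comm, mul_assoc]
    exact S.step_mul_left (S.H.inv_mem hh0) (S.step_mul (S.step_one he) hm0)
  have hc3 : S.IsCrit (c + 1) S.y⁻¹ (h0⁻¹ * e * m0) f0 (cj (k0 * h2) w) := by
    refine ⟨S.isE_yinv, hm3, hf0, S.V_normal (S.H.mul_mem hk0 hh2) hw, ?_⟩
    rw [← cj_mul]
    have e1 : e2 * (g2 * h0) * S.y = h2⁻¹ * (e * m)⁻¹ * (h0 * S.y) := by rw [eq2]; group
    have e3 : S.y⁻¹ * (h0⁻¹ * e * m0) * f0 * (k0 * h2) = (e2 * (g2 * h0) * S.y)⁻¹ := by
      rw [e1, em]; group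
    rw [e3]
    exact hwQ
  obtain ⟨h3, hh3, v3, hv3, hX3⟩ := crit_exists hB hr hmin hc3
  -- compute with a suitable first step of `q₃⁻¹`
  have key : ∀ h'' e'' g'' : G, h'' ∈ S.H → S.IsE e'' → S.Step (c + 1) g'' →
      (S.y⁻¹ * (h0⁻¹ * e * m0))⁻¹ = h'' * e'' * g'' → cj h0 r = cj (e * m0 * h'') r := by
    intro h'' e'' g'' hh'' he'' hg'' eq''
    obtain ⟨-, h⟩ := crit_next hB hr hmin hc3 hh3 hv3 hX3 hh'' he'' hg'' eq''
    rw [cj_mul h3, hC.fix hh3, ← cj_mul] at h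
    have h4 := congrArg (cj (h0 * S.y)) h
    rw [cj_mul h0 S.y (cj S.y r), hyC, ← cj_mul] at h4
    rw [h4]
    congr 1
    group
  have hu := (r_orbit hB hr hh0).resolve_left (crit_h0 hB hr hmin hc hh0 hv0 hX)
  rcases Nat.eq_zero_or_pos c with rfl | hpos
  · cases hm0 with
    | base hm0 =>
      refine hu ?_
      rw [key m0⁻¹ e⁻¹ (h0 * S.y) (S.H.inv_mem hm0) (IsE.inv S he) (step_hy hh0) (by group),
        mul_inv_cancel_right]
      exact S.e_Om he hr.1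
  · obtain ⟨d, rfl⟩ : ∃ d, c = d + 1 := ⟨c - 1, by omega⟩
    obtain ⟨h'', hh'', e'', he'', r0, hr0, e0⟩ := S.step_front (S.step_inv hm0)
    have h4 := key h'' e'' (r0 * e⁻¹ * (h0 * S.y)) hh'' he''
      (S.step_mul (S.step_mul hr0 (S.step_one (IsE.inv S he))) (step_hy hh0)) (by
        rw [show h'' * e'' * (r0 * e⁻¹ * (h0 * S.y)) = h'' * e'' * r0 * e⁻¹ * (h0 * S.y) by group,
          ← e0]
        group)
    refine hu (crit_commute hB hr hmin hc (S.V_normal hh0 (r_V hB hr)) ?_)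
    rw [h4]
    conv => rw [show r = cj S.y (cj S.y r) from hyC.symm]
    rw [← cj_mul, ← cj_mul, em]
    have hs : S.Step (1 + 1 + 1) (f⁻¹ * (k0⁻¹ * f0⁻¹) * (h'' * S.y)) :=
      S.step_mul (S.step_mul (S.step_one (IsE.inv S hf))
        (S.step_mul_left (S.H.inv_mem hk0) (S.step_one (IsE.inv S hf0)))) (step_hy hh'')
    have e5 : (e * (m0 * f0 * k0) * f)⁻¹ * (e * m0 * h'') * S.y =
        f⁻¹ * (k0⁻¹ * f0⁻¹) * (h'' * S.y) := by group
    rw [e5]
    exact hmin 3 (by omega) _ hs _ (S.Om_le_V (S.e_Om S.isE_y hr.1))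

theorem no_crit_two (hmin : ∀ j < 2, S.InQ j) {e m f v : G}
    (hc : S.IsCrit 0 e m f v) (hne : cj S.y r ≠ r) (hC : S.Cent (cj S.y r)) : False := by
  set C := cj S.y r with hC_def
  have hyC : cj S.y C = r := S.cjy_cjy_Om hr.1.1
  have h1 : S.InQ 1 := hmin 1 (by omega)
  obtain ⟨he, hm', hf, hv, hnot⟩ := id hc
  cases hm' with
  | base hm =>
  set w := cj (e * m * f) v with hw_def
  set v1 := cj S.y⁻¹ (cj f v) with hv1_def
  have hv1 : v1 ∈ S.V := ee_V hB S.isE_yinv hf hv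
  set w1 := cj (m * S.y) v1 with hw1_def
  have hw1 : w = cj e w1 := by
    rw [hw_def, hw1_def, hv1_def, cj_mul (e * m), cj_mul e, cj_mul m, cj_cj_inv]
  have hw1P : w1 ∈ S.P := S.QP (h1 _ (step_hy hm) _ hv1)
  have hw1Q : w1 ∉ S.Q1 := fun h => hnot (by rw [hw1]; exact (S.e_mem_Q_iff he).mpr h)
  obtain ⟨h0, hh0, v0, hv0, hX⟩ := crit_exists hB hr hmin hc
  set X := cj (h0 * S.y) v0 with hX_def
  have hXQ : X ∈ S.Q := h1 _ (step_hy hh0) _ hv0
  have hXQ1 : X ∉ S.Q1 := by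
    intro h
    apply hX
    rw [mul_inv_rev, cj_mul]
    exact S.Qn _ (S.H.inv_mem hm) _ ((S.e_mem_Q_iff (IsE.inv S he)).mpr h)
  have hXX : X * X = 1 := by rw [hX_def, ← cj_mul', V_sq hB hv0, cj_one']
  set w' := cj X w with hw'_def
  have hwP : w ∈ S.P := crit_tP hB hr hmin hc
  have hw'P : w' ∈ S.P := S.PcjP (S.QP hXQ) hwP
  have hw'Q : w' ∉ S.Q := fun h => hnot (by
    have := S.Qn _ (S.H.inv_mem (S.QH hXQ)) _ h
    simpa [hw'_def] using this)
  have hzQ : w * w' ∈ S.Q := S.idx w hwP w' hw'P hnot hw'Q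
  -- `w' w = s w w'` with `s ∈ {1, C}`
  have hC1 : ∀ h ∈ S.H, cj (h * S.y) r = C := fun h hh => by rw [cj_mul, hC.fix hh]
  have hs : w' * w = w * w' ∨ w' * w = C * (w * w') := by
    have e1 : cj (w * w') X = cj (h0 * S.y) (cj (cj S.y⁻¹ (cj h0⁻¹ (w * w'))) v0) := by
      simp [hX_def, cj, mul_assoc]
    have hp : cj S.y⁻¹ (cj h0⁻¹ (w * w')) ∈ S.P :=
      S.eP S.isE_yinv (S.QP (S.Qn _ (S.H.inv_mem hh0) _ hzQ))
    have hXi : X⁻¹ = X := inv_eq_of_mul_eq_one_right hXX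
    have hXw' : cj X w' = w := by
      rw [hw'_def, ← cj_mul, hXX, cj_one]
    have e2 : w' * w = cj X (w * w') := by rw [cj_mul', hXw', ← hw'_def]
    rcases P_on_V hB hr hp hv0 with h | h
    · left
      rw [h, ← hX_def] at e1
      rw [e2]
      exact cj_eq_self.mpr (cj_eq_self.mp e1).symm
    · right
      rw [h, cj_mul', ← hX_def, hC1 h0 hh0] at e1
      rw [e2]
      have e3 : X * C = C * X := hC X (S.QH hXQ)
      calc cj X (w * w') = X * cj (w * w') X * (w * w') := by rw [cj, cj, hXi]; group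
        _ = C * (w * w') := by rw [e1, ← mul_assoc X X C, hXX, one_mul]
  set t' := cj e⁻¹ X with ht'_def
  have ht'P : t' ∈ S.P := S.eP (IsE.inv S he) (S.QP hXQ)
  have ht'Q : t' ∉ S.Q := fun h => hXQ1 ((S.e_mem_Q_iff (IsE.inv S he)).mp h)
  set w2 := cj (t' * m * S.y) v1 with hw2_def
  have hw2' : w2 = cj t' w1 := by rw [hw2_def, hw1_def, mul_assoc, cj_mul]
  have hw2Q : w2 ∉ S.Q1 := fun h => hw1Q (by
    have := S.Q1n (S.P.inv_mem ht'P) (hw2' ▸ h)
    simpa using this)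
  have hw' : w' = cj e w2 := by
    rw [hw'_def, hw2', hw1, ht'_def]; simp [cj, mul_assoc]
  have heC : cj e⁻¹ C = r := by
    rw [S.e_eq_y_Om (IsE.inv S he) (S.e_Om S.isE_y hr.1).1]; exact hyC
  have hs2 : w2 * w1 = w1 * w2 ∨ w2 * w1 = r * (w1 * w2) := by
    rw [hw1, hw'] at hs
    rcases hs with h | h
    · left
      rw [← cj_mul', ← cj_mul'] at h
      exact cj_injective e h
    · right
      have := congrArg (cj e⁻¹) h
      rw [cj_mul', cj_mul', cj_mul', cj_inv_cj, cj_inv_cj, heC] at this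
      exact this
  have hcomm : w2 * w1 = w1 * w2 := by
    rcases hs2 with h | h
    · exact h
    have hp : cj (m * S.y)⁻¹ w2 ∈ S.P := by
      rw [mul_inv_rev, cj_mul]
      exact S.eP S.isE_yinv (S.QP (S.Qn _ (S.H.inv_mem hm) _
        (h1 _ (step_hy (S.H.mul_mem (S.PH ht'P) hm)) _ hv1)))
    have e1 : cj w2 w1 = cj (m * S.y) (cj (cj (m * S.y)⁻¹ w2) v1) := by
      rw [hw1_def]; simp [cj, mul_assoc]
    rcases P_on_V hB hr hp hv1 with h' | h'
    · rw [h', ← hw1_def] at e1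
      exact cj_eq_self.mp e1
    · exfalso
      rw [h', cj_mul', ← hw1_def, hC1 m hm] at e1
      have h2 : w2 * w1 = w1 * C * w2 := by rw [← e1, cj, inv_mul_cancel_right]
      rw [h2, ← mul_assoc, hr.1.1.2 w1 hw1P |>.symm] at h
      exact hne (mul_left_cancel (mul_right_cancel h))
  -- the contradiction
  set l := m⁻¹ * t' * m with hl_def
  have hl : l ∈ S.H := S.H.mul_mem (S.H.mul_mem (S.H.inv_mem hm) (S.PH ht'P)) hm
  set b := cj (l * S.y) v1 with hb_def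
  have hbQ : b ∈ S.Q1 := by
    have hp1 : cj S.y⁻¹ b ∈ S.P := S.eP S.isE_yinv (S.QP (h1 _ (step_hy hl) _ hv1))
    have hvO : v1 ∉ S.Om := fun h => hw1Q (V_le_Q1 hB hr h1 (by
      rw [hw1_def, cj_mul]; exact S.V_normal hm (S.Om_le_V (S.e_Om S.isE_y h))))
    by_contra hbQ
    refine hvO (mem_Om_of_fix hB hp1 (fun h => hbQ (S.mem_Q1.mpr h)) hv1 (cj_eq_self.mpr ?_))
    have h5 := congrArg (cj (m * S.y)⁻¹) hcomm
    rw [cj_mul', cj_mul'] at h5
    have e6 : cj (m * S.y)⁻¹ w2 = cj S.y⁻¹ b := by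
      rw [hw2_def, hb_def, hl_def]; simp [cj, mul_assoc]
    have e7 : cj (m * S.y)⁻¹ w1 = v1 := by rw [hw1_def, cj_inv_cj]
    rwa [e6, e7] at h5
  have hmr : cj m r ≠ r := by
    intro h
    apply hw1Q
    have hd := class_mod hB hr hmin hc hm h hv1
    have h2 : cj S.y v1 ∈ S.Q1 := S.cjy_mem_Q1.mpr (V_le_Q hB hv1)
    have := S.Q1.mul_mem h2 (V_le_Q1 hB hr h1 hd)
    rwa [mul_inv_cancel_left] at this
  have hmO := (r_orbit hB hr hm).resolve_left hmr
  have htm : cj (t' * m) r ≠ cj m r := by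
    rw [cj_mul, hr.2.2 t' ht'P ht'Q _ (S.V_normal hm (r_V hB hr)) hmO]
    exact fun h => hr.2.1 (mul_left_cancel (a := cj m r) (by rw [h, mul_one]))
  have htr : cj (t' * m) r ≠ r := by
    intro h
    have := congrArg (cj t'⁻¹) h
    rw [cj_mul t', cj_inv_cj, fix_r hB hr (S.P.inv_mem ht'P)] at this
    exact hmr this
  have hlr : cj l r ≠ r := by
    intro h
    have := congrArg (cj m) h
    rw [← cj_mul, show m * l = t' * m by rw [hl_def]; group] at this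
    exact htm this
  have hk : cj l r = cj m r ∨ cj l r = cj (t' * m) r := by
    rcases orbit_three hB hr hm with a | a | a
    · exact absurd a hmr
    all_goals
      rcases orbit_three hB hr (S.H.mul_mem (S.PH ht'P) hm) with b | b | b <;>
      rcases orbit_three hB hr hl with c | c | c <;>
      simp_all
  have hend : ∀ k ∈ S.H, cj l r = cj k r → cj (k * S.y) v1 ∉ S.Q1 → False := by
    intro k hk hkr hn
    apply hn
    have hfix : cj (k⁻¹ * l) r = r := by rw [cj_mul, hkr, cj_inv_cj]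
    have hd := (class_mod hB hr hmin hc (S.H.mul_mem (S.H.inv_mem hk) hl) hfix hv1).conj'
      (g := k) (fun z hz => S.V_normal hk hz)
    rw [← cj_mul k S.y, ← cj_mul k (k⁻¹ * l * S.y), show k * (k⁻¹ * l * S.y) = l * S.y by group,
      ← hb_def] at hd
    have := S.Q1.mul_mem hbQ (V_le_Q1 hB hr h1 hd.symm')
    rwa [mul_inv_cancel_left] at this
  rcases hk with h | h
  · exact hend m hm h hw1Q
  · exact hend _ (S.H.mul_mem (S.PH ht'P) hm) h hw2Q

/-- `V^y` leaves `Q` -/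
theorem short : ∃ v ∈ S.V, cj S.y v ∉ S.Q := by
  obtain ⟨b, hb, hnb, hmin⟩ := exists_b hB
  unfold InQ at hnb
  push Not at hnb
  obtain ⟨g, hg, v, hv, hgv⟩ := hnb
  rcases Nat.lt_or_ge b 2 with hb2 | hb2
  · obtain rfl : b = 1 := by omega
    obtain ⟨h, hh, e, he, k, hk, rfl⟩ := S.step_front hg
    cases hk with
    | base hk =>
      have hw : cj k v ∈ S.V := S.V_normal hk hv
      have hne : cj e (cj k v) ∉ S.Q := fun h' => hgv (by
        rw [cj_mul, cj_mul]; exact S.Qn h hh _ h')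
      refine ⟨cj S.y⁻¹ (cj e (cj k v)), ee_V hB S.isE_yinv he hw, ?_⟩
      rw [cj_cj_inv]; exact hne
  · exfalso
    obtain ⟨c, rfl⟩ : ∃ c, b = c + 2 := ⟨b - 2, by omega⟩
    obtain ⟨h, hh, e, he, g1, hg1, rfl⟩ := S.step_front hg
    obtain ⟨k, hk, f, hf, m, hm, rfl⟩ := S.step_back hg1
    have hc : S.IsCrit c e m f (cj k v) := by
      refine ⟨he, hm, hf, S.V_normal hk hv, fun h' => hgv ?_⟩
      rw [show h * e * (m * f * k) = h * (e * m * f * k) by group, cj_mul h, cj_mul (e * m * f)]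
      exact S.Qn h hh _ h'
    rcases y_r hB hr with hy | ⟨hne, hC⟩
    · exact no_crit_sym hB hr hmin hc hy
    · rcases Nat.eq_zero_or_pos c with rfl | hpos
      · exact no_crit_two hB hr hmin hc hne hC
      · obtain ⟨d, rfl⟩ : ∃ d, c = d + 1 := ⟨c - 1, by omega⟩
        exact no_crit_asym hB hr hmin hc hC

end

end Setup

end CfsgLib.PushUp.SmallDih
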