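import Cfsg.Agent.Lib.PushUp.SmallDihedral.Trans

/-!
The module `V = ⟨Ω₁Z(P)^H⟩` when `Z(P) ≤ Q`: `P \ Q` acts by transvections.
-/

set_option autoImplicit false
set_option linter.unusedSectionVars false

namespace CfsgLib.PushUp.SmallDih

variable {G : Type*} [Group G]

theorem cj_closure {s : Set G} {K : Subgroup G} {g : G} (h : ∀ u ∈ s, cj g u ∈ K) {z : G}
    (hz : z ∈ Subgroup.closure s) : cj g z ∈ K := by
  have hle : Subgroup.closure s ≤ K.comap (MulAut.conj g).toMonoidHom := by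
    rw [Subgroup.closure_le]
    exact fun u hu => h u hu
  exact hle hz

namespace Setup

variable (S : Setup G)

/-- `V = ⟨Ω₁Z(P)^H⟩` -/
def V : Subgroup G := Subgroup.closure {w | ∃ h ∈ S.H, ∃ z ∈ S.Om, w = cj h z}

theorem Om_le_V : S.Om ≤ S.V := fun z hz =>
  Subgroup.subset_closure ⟨1, S.H.one_mem, z, hz, by simp⟩

theorem V_normal {h : G} (hh : h ∈ S.H) {v : G} (hv : v ∈ S.V) : cj h v ∈ S.V := by
  refine cj_closure ?_ hv
  rintro u ⟨k, hk, z, hz, rfl⟩
  exact Subgroup.subset_closure ⟨h * k, S.H.mul_mem hh hk, z, hz, by rw [cj_mul]⟩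

/-- products of elements of `H` and of `n` copies of `y^{±1}` -/
inductive Step : ℕ → G → Prop
  | base {h : G} : h ∈ S.H → Step 0 h
  | succ {h e g : G} {n : ℕ} : h ∈ S.H → S.IsE e → Step n g → Step (n + 1) (h * e * g)

theorem step_mul_left {n : ℕ} {g h : G} (hh : h ∈ S.H) (hg : S.Step n g) : S.Step n (h * g) := by
  cases hg with
  | base hg => exact .base (S.H.mul_mem hh hg)
  | succ hk he hg =>
    rename_i k e g n
    rw [show h * (k * e * g) = h * k * e * g by group]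
    exact .succ (S.H.mul_mem hh hk) he hg

theorem step_mul {m n : ℕ} {g g' : G} (hg : S.Step m g) (hg' : S.Step n g') :
    S.Step (m + n) (g * g') := by
  induction hg with
  | base hg => rw [Nat.zero_add]; exact S.step_mul_left hg hg'
  | succ hh he _ ih =>
    rename_i h e g k _
    rw [show k + 1 + n = k + n + 1 by omega, show h * e * g * g' = h * e * (g * g') by group]
    exact .succ hh he ih

theorem step_one {e : G} (he : S.IsE e) : S.Step 1 e := by
  have := Step.succ (S := S) S.H.one_mem he (.base S.H.one_mem)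
  simpa using this

theorem step_inv {n : ℕ} {g : G} (hg : S.Step n g) : S.Step n g⁻¹ := by
  induction hg with
  | base hg => exact .base (S.H.inv_mem hg)
  | succ hh he _ ih =>
    have := S.step_mul (S.step_mul ih (S.step_one (IsE.inv S he))) (.base (S.H.inv_mem hh))
    simpa [mul_assoc] using this

theorem step_front {n : ℕ} {g : G} (hg : S.Step (n + 1) g) :
    ∃ h ∈ S.H, ∃ e, S.IsE e ∧ ∃ g1, S.Step n g1 ∧ g = h * e * g1 := by
  cases hg with
  | succ hh he hg => exact ⟨_, hh, _, he, _, hg, rfl⟩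

theorem step_back {n : ℕ} {g : G} (hg : S.Step (n + 1) g) :
    ∃ k ∈ S.H, ∃ e, S.IsE e ∧ ∃ g1, S.Step n g1 ∧ g = g1 * e * k := by
  obtain ⟨h, hh, e, he, g1, hg1, e1⟩ := S.step_front (S.step_inv hg)
  refine ⟨h⁻¹, S.H.inv_mem hh, e⁻¹, IsE.inv S he, g1⁻¹, S.step_inv hg1, ?_⟩
  rw [← inv_inv g, e1]; group

/-- all conjugates of `V` at distance `j` lie in `Q` -/
def InQ (j : ℕ) : Prop := ∀ g, S.Step j g → ∀ v ∈ S.V, cj g v ∈ S.Q

/-- case hypothesis: `Z(P) ≤ Q` -/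
def ZinQ : Prop := ∀ z, S.InZP z → z ∈ S.Q

section
variable {S} (hB : S.ZinQ)
include hB

theorem V_le_Q : S.V ≤ S.Q := by
  unfold V
  rw [Subgroup.closure_le]
  rintro u ⟨h, hh, z, hz, rfl⟩
  exact S.Qn h hh z (hB z hz.1)

theorem inQ_zero : S.InQ 0 := by
  intro g hg v hv
  cases hg with
  | base hg => exact V_le_Q hB (S.V_normal hg hv)

theorem V_le_P : S.V ≤ S.P := le_trans (V_le_Q hB) S.QP

theorem Q_commute_V {q : G} (hq : q ∈ S.Q) {v : G} (hv : v ∈ S.V) : q * v = v * q := by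
  have hle : S.V ≤ Subgroup.centralizer {q} := by
    unfold V
    rw [Subgroup.closure_le]
    rintro u ⟨h, hh, z, hz, rfl⟩
    rw [SetLike.mem_coe, Subgroup.mem_centralizer_singleton_iff]
    have h1 := hz.1.2 (cj h⁻¹ q) (S.QP (S.Qn h⁻¹ (S.H.inv_mem hh) q hq))
    have h2 := congrArg (cj h) h1
    rw [cj_mul', cj_mul', cj_cj_inv] at h2
    exact h2.symm
  exact (Subgroup.mem_centralizer_singleton_iff.mp (hle hv)).symm

theorem cjQ_fix {q : G} (hq : q ∈ S.Q) {v : G} (hv : v ∈ S.V) : cj q v = v :=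
  cj_eq_self.mpr (Q_commute_V hB hq hv)

theorem V_comm {u v : G} (hu : u ∈ S.V) (hv : v ∈ S.V) : u * v = v * u :=
  Q_commute_V hB (V_le_Q hB hu) hv

theorem V_sq {v : G} (hv : v ∈ S.V) : v * v = 1 := by
  induction hv using Subgroup.closure_induction with
  | mem u hu =>
    obtain ⟨h, -, z, hz, rfl⟩ := hu
    rw [← cj_mul', hz.2, cj_one']
  | one => simp
  | mul a b ha hb iha ihb =>
    rw [mul_assoc, ← mul_assoc b a b, V_comm hB hb ha, mul_assoc a b b, ihb, mul_one, iha]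
  | inv a ha iha => rw [← mul_inv_rev, iha, inv_one]

theorem V_inv {v : G} (hv : v ∈ S.V) : v⁻¹ = v := inv_eq_of_mul_eq_one_right (V_sq hB hv)

/-- elements of `P` in the same coset act alike on `V` -/
theorem cj_V_eq {a b : G} (ha : a ∈ S.P) (hb : b ∈ S.P) (haQ : a ∉ S.Q) (hbQ : b ∉ S.Q) {v : G}
    (hv : v ∈ S.V) : cj a v = cj b v := by
  have hq : a * b⁻¹ ∈ S.Q := S.idx a ha b⁻¹ (S.P.inv_mem hb) haQ
    (fun h => hbQ (by simpa using S.Q.inv_mem h))
  have e : a = a * b⁻¹ * b := by group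
  rw [e, cj_mul]
  exact cjQ_fix hB hq (S.V_normal (S.PH hb) hv)

theorem t_t_fix {t : G} (ht : t ∈ S.P) {v : G} (hv : v ∈ S.V) : cj t (cj t v) = v := by
  rw [← cj_mul]; exact cjQ_fix hB (S.mem_Q_of_sq ht) hv

theorem tinv_fix {t : G} (ht : t ∈ S.P) {v : G} (hv : v ∈ S.V) : cj t⁻¹ v = cj t v := by
  conv_lhs => rw [← t_t_fix hB ht hv, cj_inv_cj]

variable [Finite G]

/-- no element of `P \ Q` centralises `V` -/
theorem not_fix {t : G} (ht : t ∈ S.P) (htQ : t ∉ S.Q) : ∃ v ∈ S.V, cj t v ≠ v := by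
  by_contra h
  push Not at h
  have hxt : ∀ v ∈ S.V, cj S.x t * v = v * cj S.x t := by
    intro v hv
    have h1 := cj_eq_self.mp (h _ (S.V_normal (S.H.inv_mem S.xH) hv))
    have h2 := congrArg (cj S.x) h1
    rwa [cj_mul', cj_mul', cj_cj_inv] at h2
  refine S.Om_ne_bot (S.core S.Om S.Om_le ?_ (fun z hz => S.e_Om S.isE_y hz))
  intro k hk z hz
  have hzV := S.Om_le_V hz
  have := S.commute_H_of ht htQ (fun q hq => Q_commute_V hB hq hzV)
    (cj_eq_self.mp (h z hzV)) (hxt z hzV) hk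
  rw [cj_eq_self.mpr this]
  exact hz

theorem mem_Om_of_fix {t : G} (ht : t ∈ S.P) (htQ : t ∉ S.Q) {v : G} (hv : v ∈ S.V)
    (h : cj t v = v) : v ∈ S.Om := by
  refine ⟨⟨V_le_P hB hv, fun p hp => ?_⟩, V_sq hB hv⟩
  exact Subgroup.mem_centralizer_singleton_iff.mp (S.P_le ht htQ (Subgroup.centralizer {v})
    (fun q hq => Subgroup.mem_centralizer_singleton_iff.mpr (Q_commute_V hB hq hv))
    (Subgroup.mem_centralizer_singleton_iff.mpr (cj_eq_self.mp h)) hp)

theorem fix_of_mem_Om {z : G} (hz : z ∈ S.Om) {p : G} (hp : p ∈ S.P) : cj p z = z :=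
  cj_eq_self.mpr (hz.1.2 p hp)

theorem exists_notInQ : ∃ j, ¬ S.InQ j := by
  by_contra h
  push Not at h
  let X : Subgroup G := Subgroup.closure {u | ∃ j g v, S.Step j g ∧ v ∈ S.V ∧ u = cj g v}
  have hXQ : X ≤ S.Q := by
    rw [Subgroup.closure_le]
    rintro u ⟨j, g, v, hg, hv, rfl⟩
    exact h j g hg v hv
  have hX : X = ⊥ := by
    refine S.core X (le_trans hXQ S.QP) ?_ ?_
    · intro k hk z hz
      refine cj_closure ?_ hz
      rintro u ⟨j, g, v, hg, hv, rfl⟩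
      exact Subgroup.subset_closure ⟨j, _, v, S.step_mul_left hk hg, hv, (cj_mul _ _ _).symm⟩
    · intro z hz
      refine cj_closure ?_ hz
      rintro u ⟨j, g, v, hg, hv, rfl⟩
      exact Subgroup.subset_closure
        ⟨1 + j, _, v, S.step_mul (S.step_one S.isE_y) hg, hv, (cj_mul _ _ _).symm⟩
  refine S.Om_ne_bot (le_bot_iff.mp (le_trans ?_ hX.le))
  intro z hz
  exact Subgroup.subset_closure ⟨0, 1, z, .base S.H.one_mem, S.Om_le_V hz, by simp⟩

/-- the least distance of a non-contained conjugate of `V` -/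
theorem exists_b : ∃ b, 1 ≤ b ∧ ¬ S.InQ b ∧ ∀ j < b, S.InQ j := by
  classical
  have he := exists_notInQ hB
  refine ⟨Nat.find he, ?_, Nat.find_spec he, fun j hj => not_not.mp (Nat.find_min he hj)⟩
  rw [Nat.one_le_iff_ne_zero]
  intro h0
  have := Nat.find_spec he
  rw [h0] at this
  exact this (inQ_zero hB)

/-- a transvection: the fixed points have index at most two -/
theorem mul_mem_Om {u w : G} (hu : u ∈ S.V) (hw : w ∈ S.V) (huO : u ∉ S.Om) (hwO : w ∉ S.Om) :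
    u * w ∈ S.Om := by
  obtain ⟨b, hb, hnb, hmin⟩ := exists_b hB
  obtain ⟨c, rfl⟩ : ∃ c, b = c + 1 := ⟨b - 1, by omega⟩
  unfold InQ at hnb
  push Not at hnb
  obtain ⟨g, hg, v, hv, hgv⟩ := hnb
  obtain ⟨h, hh, e, he, g1, hg1, rfl⟩ := S.step_front hg
  set t := cj e (cj g1 v) with ht_def
  have hin : cj g1 v ∈ S.Q := hmin c (by omega) g1 hg1 v hv
  have htP : t ∈ S.P := S.eP he (S.QP hin)
  have htQ : t ∉ S.Q := fun h' => hgv (by rw [cj_mul, cj_mul]; exact S.Qn h hh _ h')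
  obtain ⟨k, hk, e', he', g2, hg2, eg⟩ :=
    S.step_front (S.step_inv (Step.succ (S := S) S.H.one_mem he hg1))
  rw [one_mul] at eg
  have hmem : ∀ w ∈ S.V, cj (e' * g2) w ∈ S.P := fun w hw => by
    rw [cj_mul]; exact S.eP he' (S.QP (hmin c (by omega) g2 hg2 w hw))
  -- `C` := elements whose image under `(e g1)⁻¹` lies in `Q`
  have hC : ∀ w ∈ S.V, cj (e' * g2) w ∈ S.Q → w ∈ S.Om := by
    intro w hw hwQ
    refine mem_Om_of_fix hB htP htQ hw (cj_eq_self.mpr ?_)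
    have h1 : cj (e * g1)⁻¹ w ∈ S.Q := by
      rw [eg, mul_assoc, cj_mul]; exact S.Qn k hk _ hwQ
    have h2 := congrArg (cj (e * g1)) (Q_commute_V hB h1 hv)
    rw [cj_mul', cj_mul', cj_cj_inv] at h2
    rw [ht_def, ← cj_mul]
    exact h2.symm
  refine hC _ (S.V.mul_mem hu hw) ?_
  rw [cj_mul']
  exact S.idx _ (hmem u hu) _ (hmem w hw) (fun h' => huO (hC u hu h'))
    (fun h' => hwO (hC w hw h'))

theorem exists_transvection : ∃ r ∈ S.Om, r ≠ 1 ∧
    ∀ t ∈ S.P, t ∉ S.Q → ∀ v ∈ S.V, v ∉ S.Om → cj t v = v * r := by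
  obtain ⟨t0, ht0, ht0Q⟩ := S.outside
  obtain ⟨v0, hv0, hne⟩ := not_fix hB ht0 ht0Q
  have hw0 : cj t0 v0 ∈ S.V := S.V_normal (S.PH ht0) hv0
  have hr : v0 * cj t0 v0 ∈ S.V := S.V.mul_mem hv0 hw0
  refine ⟨v0 * cj t0 v0, mem_Om_of_fix hB ht0 ht0Q hr ?_, ?_, ?_⟩
  · rw [cj_mul', t_t_fix hB ht0 hv0, V_comm hB hw0 hv0]
  · intro h
    apply hne
    rw [eq_inv_of_mul_eq_one_right h, V_inv hB hv0]
  · intro t ht htQ v hv hvO
    rw [cj_V_eq hB ht ht0 htQ ht0Q hv]
    have hv0O : v0 ∉ S.Om := fun h => hne (fix_of_mem_Om hB h ht0)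
    have h1 := fix_of_mem_Om hB (mul_mem_Om hB hv hv0 hvO hv0O) ht0
    rw [cj_mul'] at h1
    calc cj t0 v = v * v0 * (cj t0 v0)⁻¹ := by rw [← h1, mul_inv_cancel_right]
      _ = v * (v0 * cj t0 v0) := by rw [V_inv hB hw0, mul_assoc]

end

end Setup

end CfsgLib.PushUp.SmallDih
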