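import Cfsg.Agent.Lib.PushUp.SmallDihedral.Module

/-!
The transvection `r`, its three conjugates, and the cube of `x`.
-/

set_option autoImplicit false
set_option linter.unusedSectionVars false

namespace CfsgLib.PushUp.SmallDih

variable {G : Type*} [Group G] [Finite G]

namespace Setup

variable {S : Setup G}

/-- congruence modulo a subgroup -/
def Cong (N : Subgroup G) (a b : G) : Prop := a⁻¹ * b ∈ N

theorem Cong.refl' (N : Subgroup G) (a : G) : Cong N a a := by simp [Cong]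

theorem Cong.symm' {N : Subgroup G} {a b : G} (h : Cong N a b) : Cong N b a := by
  have := N.inv_mem h
  simpa [Cong] using this

theorem Cong.trans' {N : Subgroup G} {a b c : G} (h : Cong N a b) (h' : Cong N b c) :
    Cong N a c := by
  have := N.mul_mem h h'
  simpa [Cong, mul_assoc] using this

theorem Cong.mul_left' {N : Subgroup G} {a b : G} (s : G) (h : Cong N a b) :
    Cong N (s * a) (s * b) := by simpa [Cong, mul_assoc] using h

theorem Cong.mul_right' {N : Subgroup G} {a b s : G} (hs : ∀ z ∈ N, cj s⁻¹ z ∈ N)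
    (h : Cong N a b) : Cong N (a * s) (b * s) := by
  simpa [Cong, cj, mul_assoc] using hs _ h

theorem Cong.conj' {N : Subgroup G} {a b g : G} (hg : ∀ z ∈ N, cj g z ∈ N) (h : Cong N a b) :
    Cong N (cj g a) (cj g b) := by
  simpa [Cong, cj, mul_assoc] using hg _ h

/-- the cube of `x` acts trivially on a section on which `t` is a transvection -/
theorem cube_mod {N W : Subgroup G}
    (hWn : ∀ h ∈ S.H, ∀ w ∈ W, cj h w ∈ W) (hNn : ∀ h ∈ S.H, ∀ z ∈ N, cj h z ∈ N)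
    (hWN : ∀ w ∈ W, ∀ z ∈ N, cj w z ∈ N) (hsq : ∀ w ∈ W, w * w ∈ N)
    (hQ : ∀ q ∈ S.Q, ∀ w ∈ W, Cong N w (cj q w))
    {t p : G} (ht : t ∈ S.P) (htQ : t ∉ S.Q) (hp : p ∈ W)
    (htw : ∀ w ∈ W, Cong N w (cj t w) ∨ Cong N (w * p) (cj t w)) :
    ∀ w ∈ W, Cong N w (cj (S.x ^ 3) w) := by
  set f := S.x⁻¹ * S.x⁻¹ with hf_def
  have hxi : S.x⁻¹ ∈ S.H := S.H.inv_mem S.xH
  have hf : f ∈ S.H := S.H.mul_mem hxi hxi
  have htH : t ∈ S.H := S.PH ht
  set q := cj S.x p with hq_def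
  have hq : q ∈ W := hWn _ S.xH _ hp
  have hWs : ∀ s ∈ W, ∀ z ∈ N, cj s⁻¹ z ∈ N := fun s hs => hWN _ (W.inv_mem hs)
  have hb : ∀ w ∈ W, Cong N w (cj (cj S.x t) w) ∨ Cong N (w * q) (cj (cj S.x t) w) := by
    intro w hw
    have e : cj (cj S.x t) w = cj S.x (cj t (cj S.x⁻¹ w)) := by simp [cj, mul_assoc]
    rw [e]
    rcases htw _ (hWn _ hxi w hw) with h | h
    · left
      simpa using h.conj' (hNn _ S.xH)
    · right
      have := h.conj' (hNn _ S.xH)
      rwa [cj_mul', cj_cj_inv] at this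
  have hfw : ∀ w ∈ W, Cong N (cj f w) (cj t (cj (cj S.x t) w)) := by
    intro w hw
    obtain ⟨q0, hq0, e⟩ := S.prod_conj ht htQ
    rw [← cj_mul t, e, cj_mul q0]
    exact hQ q0 hq0 _ (hWn f hf w hw)
  have hS : ∀ w ∈ W, Cong N w (cj f w) ∨ Cong N (w * p) (cj f w) ∨ Cong N (w * q) (cj f w) ∨
      Cong N (w * (p * q)) (cj f w) := by
    intro w hw
    have hfin := (hfw w hw).symm'
    rcases hb w hw with h | h
    · have h' := (h.conj' (hNn t htH)).trans' hfin
      rcases htw w hw with h1 | h1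
      · exact Or.inl (h1.trans' h')
      · exact Or.inr (Or.inl (h1.trans' h'))
    · have h' := (h.conj' (hNn t htH)).trans' hfin
      rw [cj_mul'] at h'
      have hq2 : Cong N q (cj t q) ∨ Cong N (q * p) (cj t q) := htw q hq
      have htqW : cj t q ∈ W := hWn t htH q hq
      have hcomm : ∀ a ∈ W, ∀ b ∈ W, Cong N (a * b) (b * a) := by
        intro a ha b hb
        -- commutators are products of squares
        have h1 := hsq _ (W.mul_mem (W.inv_mem ha) (W.inv_mem hb))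
        have h2 := hsq a ha
        have h3 := hsq b hb
        have h4 := N.mul_mem (N.mul_mem h1 (hWN b hb _ h2)) h3
        have e : (a * b)⁻¹ * (b * a) = b⁻¹ * a⁻¹ * b * a := by group
        unfold Cong
        rw [e]
        have h5 := hsq _ (W.mul_mem (W.inv_mem hb) (W.inv_mem ha))
        have e2 : b⁻¹ * a⁻¹ * b * a = (b⁻¹ * a⁻¹ * (b⁻¹ * a⁻¹)) * cj a (b * b) * (a * a) := by
          simp [cj, mul_assoc]
        rw [e2]
        exact N.mul_mem (N.mul_mem h5 (hWN a ha _ h3)) h2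
      rcases htw w hw with h1 | h1 <;> rcases hq2 with h2 | h2
      · exact Or.inr (Or.inr (Or.inl
          (((h1.mul_right' (hWs q hq)).trans' (h2.mul_left' (cj t w))).trans' h')))
      · refine Or.inr (Or.inr (Or.inr ?_))
        have h3 := ((h1.mul_right' (hWs _ (W.mul_mem hq hp))).trans' (h2.mul_left' (cj t w))).trans' h'
        exact ((hcomm p hp q hq).mul_left' w).trans' h3
      · refine Or.inr (Or.inr (Or.inr ?_))
        have h3 := ((h1.mul_right' (hWs q hq)).trans' (h2.mul_left' (cj t w))).trans' h'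
        rwa [mul_assoc] at h3
      · have h3 := ((h1.mul_right' (hWs _ (W.mul_mem hq hp))).trans'
          (h2.mul_left' (cj t w))).trans' h'
        refine Or.inr (Or.inr (Or.inl ?_))
        have h4 : Cong N (w * q) (w * p * (q * p)) := by
          have h5 : Cong N q (p * (q * p)) := by
            have h6 : Cong N q (q * (p * p)) := by
              unfold Cong; rw [inv_mul_cancel_left]; exact hsq p hp
            rw [← mul_assoc] at h6
            exact h6.trans' (hcomm (q * p) (W.mul_mem hq hp) p hp)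
          have := h5.mul_left' w
          rwa [← mul_assoc] at this
        exact h4.trans' h3
  have hfn : f ^ S.n = 1 := by
    rw [hf_def, ← pow_two, ← pow_mul, mul_comm, pow_mul, inv_pow, S.x_pow, inv_one, one_pow]
  have h3 := trans_cube hWN hsq S.n_odd hfn (hWn f hf) (hNn f hf) hp hq hS
  intro w hw
  have e3 : f ^ 3 = (S.x ^ 3 * S.x ^ 3)⁻¹ := by rw [hf_def]; group
  have hx3 : S.x ^ 3 * S.x ^ 3 ∈ S.H := S.H.mul_mem (S.H.pow_mem S.xH 3) (S.H.pow_mem S.xH 3)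
  have hg : ∀ w ∈ W, Cong N w (cj (S.x ^ 3 * S.x ^ 3) w) := by
    intro w hw
    have := h3 _ (hWn _ hx3 w hw)
    rw [e3, cj_inv_cj] at this
    exact Cong.symm' this
  have hk : ∀ k : ℕ, Cong N w (cj ((S.x ^ 3 * S.x ^ 3) ^ k) w) := by
    intro k
    induction k with
    | zero => simp [Cong]
    | succ k ih =>
      rw [pow_succ', cj_mul]
      exact ih.trans' (hg _ (hWn _ (S.H.pow_mem hx3 k) w hw))
  obtain ⟨k, hk'⟩ := S.n_odd
  have := hk (k + 1)
  have e : (S.x ^ 3 * S.x ^ 3) ^ (k + 1) = S.x ^ 3 := by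
    rw [← pow_add, ← pow_mul, show (3 + 3) * (k + 1) = (2 * k + 1) * 3 + 3 by ring, pow_add,
      pow_mul, ← hk', S.x_pow, one_pow, one_mul]
  rwa [e] at this

/-- `r` is the common transvection centre of `P \ Q` on `V` -/
def IsTr (S : Setup G) (r : G) : Prop :=
  r ∈ S.Om ∧ r ≠ 1 ∧ ∀ t ∈ S.P, t ∉ S.Q → ∀ v ∈ S.V, v ∉ S.Om → cj t v = v * r

/-- central in `H` -/
def Cent (S : Setup G) (z : G) : Prop := ∀ h ∈ S.H, h * z = z * h

theorem Cent.mul' {a b : G} (ha : S.Cent a) (hb : S.Cent b) : S.Cent (a * b) :=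
  fun h hh => by rw [← mul_assoc, ha h hh, mul_assoc, hb h hh, mul_assoc]

theorem Cent.fix {z : G} (hz : S.Cent z) {h : G} (hh : h ∈ S.H) : cj h z = z :=
  cj_eq_self.mpr (hz h hh)

variable (hB : S.ZinQ) {r : G} (hr : S.IsTr r)
include hB hr

theorem r_V : r ∈ S.V := S.Om_le_V hr.1
theorem r_sq : r * r = 1 := hr.1.2

theorem t_on_V {t : G} (ht : t ∈ S.P) (htQ : t ∉ S.Q) {v : G} (hv : v ∈ S.V) :
    cj t v = v ∨ cj t v = v * r := by
  by_cases h : v ∈ S.Om
  · exact Or.inl (fix_of_mem_Om hB h ht)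
  · exact Or.inr (hr.2.2 t ht htQ v hv h)

theorem P_on_V {p : G} (hp : p ∈ S.P) {v : G} (hv : v ∈ S.V) : cj p v = v ∨ cj p v = v * r := by
  by_cases h : p ∈ S.Q
  · exact Or.inl (cjQ_fix hB h hv)
  · exact t_on_V hB hr hp h hv

theorem fix_r {p : G} (hp : p ∈ S.P) : cj p r = r := fix_of_mem_Om hB hr.1 hp

theorem H_r {h : G} (hh : h ∈ S.H) : ∃ i : ℕ, ∃ p ∈ S.P, h = S.x ^ i * p ∧
    cj h r = cj (S.x ^ i) r := by
  obtain ⟨i, p, hp, rfl⟩ := S.dich h hh
  exact ⟨i, p, hp, rfl, by rw [cj_mul, fix_r hB hr hp]⟩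

theorem central_of {z : G} (hz : z ∈ S.Om) (hxz : cj S.x⁻¹ z ∈ S.Om) : S.Cent z := by
  obtain ⟨t, ht, htQ⟩ := S.outside
  intro h hh
  refine S.commute_H_of ht htQ (fun q hq => hz.1.2 q (S.QP hq)) (hz.1.2 t ht) ?_ hh
  have h2 := congrArg (cj S.x) (hxz.1.2 t ht)
  rwa [cj_mul', cj_mul', cj_cj_inv] at h2

theorem r_not_central : ¬ S.Cent r := by
  intro hc
  obtain ⟨t, ht, htQ⟩ := S.outside
  set f := S.x⁻¹ * S.x⁻¹ with hf_def
  have hf : f ∈ S.H := S.H.mul_mem (S.H.inv_mem S.xH) (S.H.inv_mem S.xH)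
  have hfr : cj f r = r := hc.fix hf
  have hfix : ∀ v ∈ S.V, cj f v = v := by
    intro v hv
    obtain ⟨q, hq, e⟩ := S.prod_conj ht htQ
    have h1 : cj f v = cj t (cj (cj S.x t) v) := by
      rw [← cj_mul t, e, cj_mul q, cjQ_fix hB hq (S.V_normal hf hv)]
    have e2 : cj (cj S.x t) v = cj S.x (cj t (cj S.x⁻¹ v)) := by simp [cj, mul_assoc]
    have hxv := S.V_normal (S.H.inv_mem S.xH) hv
    have h2 : cj f v = v ∨ cj f v = v * r := by
      rw [h1, e2]
      rcases t_on_V hB hr ht htQ hxv with h | h <;> rw [h]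
      · rw [cj_cj_inv]
        exact t_on_V hB hr ht htQ hv
      · rw [cj_mul', cj_cj_inv, hc.fix S.xH, cj_mul', fix_r hB hr ht]
        rcases t_on_V hB hr ht htQ hv with h' | h' <;> rw [h']
        · exact Or.inr rfl
        · exact Or.inl (by rw [mul_assoc, r_sq hB hr, mul_one])
    rcases h2 with h2 | h2
    · exact h2
    · exfalso
      have hi : ∀ i : ℕ, cj (f ^ i) v = v * r ^ i := by
        intro i
        induction i with
        | zero => simp
        | succ i ih =>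
          rw [pow_succ', cj_mul, ih, cj_mul', h2]
          have : cj f (r ^ i) = r ^ i :=
            cj_eq_self.mpr ((Commute.pow_right (cj_eq_self.mp hfr : Commute f r)) i)
          rw [this, mul_assoc, ← pow_succ']
      obtain ⟨k, hk⟩ := S.n_odd
      have h3 := hi S.n
      have hfn : f ^ S.n = 1 := by
        rw [hf_def, ← pow_two, ← pow_mul, mul_comm, pow_mul, inv_pow, S.x_pow, inv_one, one_pow]
      rw [hfn, cj_one, hk, pow_succ, pow_mul, pow_two, r_sq hB hr, one_pow, one_mul] at h3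
      exact hr.2.1 (mul_left_cancel (a := v) (by rw [← h3, mul_one]))
  refine S.Om_ne_bot (S.core S.Om S.Om_le ?_ (fun z hz => S.e_Om S.isE_y hz))
  intro h hh z hz
  have hfx : cj S.x⁻¹ z = z := fix_of_sq S.n_odd (by rw [inv_pow, S.x_pow, inv_one])
    (hfix z (S.Om_le_V hz))
  rw [(central_of hB hr hz (by rw [hfx]; exact hz)).fix hh]
  exact hz

theorem r_orbit {h : G} (hh : h ∈ S.H) : cj h r = r ∨ cj h r ∉ S.Om := by
  by_contra hcon
  push Not at hcon
  obtain ⟨hne, hmem⟩ := hcon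
  obtain ⟨i, p, hp, rfl, he⟩ := H_r hB hr hh
  rw [he] at hne hmem
  obtain ⟨t, ht, htQ⟩ := S.outside
  have hrV := r_V hB hr
  have h1 : ∀ j : ℕ, cj ((t * S.x * t⁻¹) ^ j) r = cj (S.x⁻¹ ^ j) r := by
    intro j
    induction j with
    | zero => simp
    | succ j ih =>
      rw [pow_succ', cj_mul (t * S.x * t⁻¹), ih, pow_succ', cj_mul S.x⁻¹]
      have e : t * S.x * t⁻¹ = (t * S.x * t⁻¹ * S.x) * S.x⁻¹ := by group
      rw [e, cj_mul (t * S.x * t⁻¹ * S.x)]
      exact cjQ_fix hB (S.inv t ht htQ) (S.V_normal (S.H.inv_mem S.xH)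
        (S.V_normal (S.H.pow_mem (S.H.inv_mem S.xH) j) hrV))
  have h2 : cj (S.x⁻¹ ^ i) r = cj (S.x ^ i) r := by
    rw [← h1, conj_pow, cj_mul, cj_mul, fix_r hB hr (S.P.inv_mem ht), fix_of_mem_Om hB hmem ht]
  have h3 : cj (S.x ^ i * S.x ^ i) r = r := by
    rw [cj_mul, ← h2, ← cj_mul, inv_pow, mul_inv_cancel, cj_one]
  exact hne (fix_of_sq S.n_odd (by rw [← pow_mul, mul_comm, pow_mul, S.x_pow, one_pow]) h3)

theorem xinv_r : cj S.x⁻¹ r ∉ S.Om := by
  intro h
  exact r_not_central hB hr (central_of hB hr hr.1 h)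

theorem x_r_ne : cj S.x r ≠ r := by
  intro h
  refine xinv_r hB hr ?_
  conv in cj S.x⁻¹ r => rw [← h, cj_inv_cj]
  exact hr.1

theorem xx_r_ne : cj (S.x * S.x) r ≠ r := fun h => x_r_ne hB hr (fix_of_sq S.n_odd S.x_pow h)

theorem Om_split {z : G} (hz : z ∈ S.Om) : S.Cent z ∨ S.Cent (z * r) := by
  by_cases h : cj S.x⁻¹ z ∈ S.Om
  · exact Or.inl (central_of hB hr hz h)
  · refine Or.inr (central_of hB hr (S.Om.mul_mem hz hr.1) ?_)
    rw [cj_mul']
    exact mul_mem_Om hB (S.V_normal (S.H.inv_mem S.xH) (S.Om_le_V hz))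
      (S.V_normal (S.H.inv_mem S.xH) (r_V hB hr)) h (xinv_r hB hr)

theorem cent_y {c : G} (hc : c ∈ S.Om) (h1 : S.Cent c) (h2 : S.Cent (cj S.y c)) : c = 1 := by
  let X : Subgroup G :=
    { carrier := {z | z ∈ S.Om ∧ S.Cent z ∧ S.Cent (cj S.y z)}
      one_mem' := ⟨S.Om.one_mem, fun h _ => by simp, fun h _ => by simp⟩
      mul_mem' := by
        rintro a b ⟨ha, ha1, ha2⟩ ⟨hb, hb1, hb2⟩
        exact ⟨S.Om.mul_mem ha hb, ha1.mul' hb1, by rw [cj_mul']; exact ha2.mul' hb2⟩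
      inv_mem' := by
        rintro a ⟨ha, ha1, ha2⟩
        have e : a⁻¹ = a := inv_eq_of_mul_eq_one_right ha.2
        rw [e]; exact ⟨ha, ha1, ha2⟩ }
  have hX : X = ⊥ := by
    refine S.core X (fun z hz => S.Om_le hz.1) ?_ ?_
    · intro h hh z hz
      rw [hz.2.1.fix hh]; exact hz
    · intro z hz
      exact ⟨S.e_Om S.isE_y hz.1, hz.2.2, by rw [S.cjy_cjy_Om hz.1.1]; exact hz.2.1⟩
  have : c ∈ X := ⟨hc, h1, h2⟩
  rw [hX] at this
  exact Subgroup.mem_bot.mp this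

theorem cent_unique {c d : G} (hc : c ∈ S.Om) (hd : d ∈ S.Om) (h1 : S.Cent c) (h2 : S.Cent d)
    (hc1 : c ≠ 1) (hd1 : d ≠ 1) : c = d := by
  have aux : ∀ c ∈ S.Om, S.Cent c → c ≠ 1 → S.Cent (cj S.y c * r) := fun c hc h1 hc1 =>
    (Om_split hB hr (S.e_Om S.isE_y hc)).resolve_left (fun h => hc1 (cent_y hB hr hc h1 h))
  have hmul := (aux c hc h1 hc1).mul' (aux d hd h2 hd1)
  have e : cj S.y c * r * (cj S.y d * r) = cj S.y (c * d) := by
    rw [cj_mul']
    have hyd := S.e_Om S.isE_y hd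
    rw [mul_assoc, ← hyd.1.2 r (S.Om_le hr.1), ← mul_assoc r r, r_sq hB hr, one_mul]
  rw [e] at hmul
  have h := cent_y hB hr (S.Om.mul_mem hc hd) (h1.mul' h2) hmul
  rw [eq_inv_of_mul_eq_one_left h]
  exact inv_eq_of_mul_eq_one_right hd.2

theorem y_r : cj S.y r = r ∨ (cj S.y r ≠ r ∧ S.Cent (cj S.y r)) := by
  by_cases h : cj S.y r = r
  · exact Or.inl h
  refine Or.inr ⟨h, ?_⟩
  have hy := S.e_Om S.isE_y hr.1
  rcases Om_split hB hr hy with h1 | h1
  · exact h1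
  exfalso
  have hc := S.Om.mul_mem hy hr.1
  have e : cj S.y (cj S.y r * r) = cj S.y r * r := by
    rw [cj_mul', S.cjy_cjy_Om hr.1.1]
    exact (hy.1.2 r (S.Om_le hr.1))
  have h2 := cent_y hB hr hc h1 (by rw [e]; exact h1)
  apply h
  rw [eq_inv_of_mul_eq_one_left h2]
  exact inv_eq_of_mul_eq_one_right hr.1.2

theorem cube_fix {v : G} (hv : v ∈ S.V) : cj (S.x ^ 3) v = v := by
  obtain ⟨t, ht, htQ⟩ := S.outside
  have := cube_mod (S := S) (N := ⊥) (W := S.V) (fun h hh w hw => S.V_normal hh hw)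
    (fun h _ z hz => by rw [Subgroup.mem_bot] at hz ⊢; rw [hz, cj_one'])
    (fun w _ z hz => by rw [Subgroup.mem_bot] at hz ⊢; rw [hz, cj_one'])
    (fun w hw => Subgroup.mem_bot.mpr (V_sq hB hw))
    (fun q hq w hw => by rw [cjQ_fix hB hq hw]; exact Cong.refl' _ _) ht htQ (r_V hB hr)
    (fun w hw => by
      rcases t_on_V hB hr ht htQ hw with h | h
      · exact Or.inl (by rw [h]; exact Cong.refl' _ _)
      · exact Or.inr (by rw [h]; exact Cong.refl' _ _)) v hv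
  exact (inv_mul_eq_one.mp (Subgroup.mem_bot.mp this)).symm

theorem pow_r (i : ℕ) : cj (S.x ^ i) r = cj (S.x ^ (i % 3)) r := by
  conv_lhs => rw [← Nat.mod_add_div i 3, pow_add, pow_mul, cj_mul]
  rw [cj_pow_of_fix (cube_fix hB hr (r_V hB hr))]

theorem three_dvd {i : ℕ} (h : cj (S.x ^ i) r = r) : 3 ∣ i := by
  rw [pow_r hB hr] at h
  have h3 : i % 3 < 3 := Nat.mod_lt _ (by norm_num)
  rcases (show i % 3 = 0 ∨ i % 3 = 1 ∨ i % 3 = 2 by omega) with e | e | e <;> rw [e] at h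
  · omega
  · rw [pow_one] at h; exact absurd h (x_r_ne hB hr)
  · rw [pow_two] at h; exact absurd h (xx_r_ne hB hr)

theorem orbit_three {h : G} (hh : h ∈ S.H) :
    cj h r = r ∨ cj h r = cj S.x r ∨ cj h r = cj (S.x * S.x) r := by
  obtain ⟨i, p, -, -, e⟩ := H_r hB hr hh
  rw [e, pow_r hB hr]
  rcases (show i % 3 = 0 ∨ i % 3 = 1 ∨ i % 3 = 2 by omega) with e' | e' | e' <;> rw [e']
  · left; simp
  · right; left; rw [pow_one]
  · right; right; rw [pow_two]

/-- the stabiliser of `r` -/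
theorem stab_r {h : G} (hh : h ∈ S.H) (e : cj h r = r) :
    ∃ j : ℕ, ∃ p ∈ S.P, h = (S.x ^ 3) ^ j * p := by
  obtain ⟨i, p, hp, rfl, e'⟩ := H_r hB hr hh
  obtain ⟨j, rfl⟩ := three_dvd hB hr (i := i) (by rw [← e', e])
  exact ⟨j, p, hp, by rw [← pow_mul]⟩

end Setup

end CfsgLib.PushUp.SmallDih
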