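import Cfsg.Agent.Lib.PushUp.SmallDihedral.Basic

/-!
An element of odd order acting as a product of two transvections on an elementary abelian section
has cube acting trivially.
-/

set_option autoImplicit false

namespace CfsgLib.PushUp.SmallDih



theorem iterate_three_of_odd {M : Type*} [Group M] [Finite M] (hexp : ∀ m : M, m * m = 1)
    (φ : M →* M) {n : ℕ} (hn : Odd n) (hφ : ∀ m, φ^[n] m = m) (p q : M)
    (hS : ∀ m, φ m = m ∨ φ m = m * p ∨ φ m = m * q ∨ φ m = m * (p * q)) (m : M) :
    φ^[3] m = m := by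
  classical
  have hinv : ∀ m : M, m⁻¹ = m := fun m => inv_eq_of_mul_eq_one_right (hexp m)
  have hcomm : ∀ a b : M, a * b = b * a := fun a b => by
    have := mul_inv_rev a b
    rwa [hinv, hinv, hinv] at this
  let S : Subgroup M :=
    { carrier := {s | s = 1 ∨ s = p ∨ s = q ∨ s = p * q}
      one_mem' := Or.inl rfl
      inv_mem' := fun {a} ha => by rw [hinv]; exact ha
      mul_mem' := by
        have e1 : q * p = p * q := hcomm q p
        have e2 : p * (p * q) = q := by rw [← mul_assoc, hexp, one_mul]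
        have e3 : (p * q) * p = q := by rw [hcomm, e2]
        have e4 : (p * q) * q = p := by rw [mul_assoc, hexp, mul_one]
        have e5 : q * (p * q) = p := by rw [hcomm, e4]
        rintro a b (rfl | rfl | rfl | rfl) (rfl | rfl | rfl | rfl) <;>
          simp [hexp, e1, e2, e3, e4, e5] }
  have hS' : ∀ m, ∃ s ∈ S, φ m = m * s := by
    intro m
    rcases hS m with h | h | h | h
    · exact ⟨1, S.one_mem, by rw [h, mul_one]⟩
    · exact ⟨p, Or.inr (Or.inl rfl), h⟩
    · exact ⟨q, Or.inr (Or.inr (Or.inl rfl)), h⟩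
    · exact ⟨p * q, Or.inr (Or.inr (Or.inr rfl)), h⟩
  have hφS : ∀ s ∈ S, φ s ∈ S := by
    intro s hs
    obtain ⟨s', hs', e⟩ := hS' s
    rw [e]; exact S.mul_mem hs hs'
  have hiter : ∀ k m, ∃ s ∈ S, φ^[k] m = m * s := by
    intro k
    induction k with
    | zero => exact fun m => ⟨1, S.one_mem, by simp⟩
    | succ k ih =>
      intro m
      obtain ⟨s, hs, e⟩ := ih m
      obtain ⟨s', hs', e'⟩ := hS' m
      refine ⟨s' * φ s, S.mul_mem hs' (hφS s hs), ?_⟩
      rw [Function.iterate_succ_apply', e, map_mul, e', mul_assoc]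
  have hn0 : 0 < n := hn.pos
  have hinj : Function.Injective φ := by
    intro a b h
    have := congrArg (φ^[n - 1]) h
    rw [← Function.iterate_succ_apply, ← Function.iterate_succ_apply,
      show (n - 1).succ = n by omega, hφ, hφ] at this
    exact this
  let σ : Equiv.Perm S := Equiv.ofBijective (fun s => ⟨φ s, hφS _ s.2⟩)
    (Finite.injective_iff_bijective.mp (fun a b h => by
      have h' : φ a = φ b := congrArg Subtype.val h
      exact Subtype.ext (hinj h')))
  have hσ : ∀ k (s : S), (((σ ^ k) s : S) : M) = φ^[k] (s : M) := by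
    intro k
    induction k with
    | zero => intro s; simp
    | succ k ih =>
      intro s
      rw [pow_succ', Equiv.Perm.mul_apply, Function.iterate_succ_apply', ← ih]
      rfl
  have hσn : σ ^ n = 1 := by
    ext s
    rw [hσ, hφ]
    rfl
  have hcard : Nat.card S ≤ 4 := by
    have hsub : (S : Set M) ⊆ (({1, p, q, p * q} : Finset M) : Set M) := by
      intro s hs
      rcases hs with rfl | rfl | rfl | rfl <;> simp
    calc Nat.card S ≤ Nat.card ((({1, p, q, p * q} : Finset M) : Set M)) :=
          Nat.card_mono (Finset.finite_toSet _) hsub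
      _ ≤ 4 := by
          rw [Nat.card_coe_set_eq, Set.ncard_coe_finset]
          exact Finset.card_le_four
  have hd : orderOf σ ∣ 24 := by
    have : Fintype S := Fintype.ofFinite S
    refine dvd_trans (orderOf_dvd_natCard σ) ?_
    rw [Nat.card_perm]
    exact dvd_trans (Nat.factorial_dvd_factorial hcard) (by decide)
  have hd3 : orderOf σ ∣ 3 := by
    have h8 : Nat.Coprime (orderOf σ) 8 := by
      have hodd : Odd (orderOf σ) := hn.of_dvd_nat (orderOf_dvd_of_pow_eq_one hσn)
      have : Nat.Coprime (orderOf σ) 2 := by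
        rw [Nat.coprime_comm, Nat.prime_two.coprime_iff_not_dvd]
        exact fun h => (Nat.not_even_iff_odd.mpr hodd) (even_iff_two_dvd.mpr h)
      exact this.pow_right 3
    exact h8.dvd_of_dvd_mul_left (show orderOf σ ∣ 8 * 3 from hd)
  have hS3 : ∀ s ∈ S, φ^[3] s = s := by
    intro s hs
    have h := hσ 3 ⟨s, hs⟩
    rw [orderOf_dvd_iff_pow_eq_one.mp hd3] at h
    exact h.symm
  obtain ⟨s, hs, e⟩ := hiter 3 m
  have hk : ∀ k, φ^[3 * k] m = m * s ^ k := by
    intro k
    induction k with
    | zero => simp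
    | succ k ih =>
      rw [show 3 * (k + 1) = 3 + 3 * k by ring, Function.iterate_add_apply, ih,
        iterate_map_mul, e, iterate_map_pow, hS3 s hs, mul_assoc, pow_succ' s k]
  have hfix : φ^[3 * n] m = m := by
    rw [mul_comm, Function.iterate_mul]
    exact Function.iterate_fixed (hφ m) 3
  have hs1 : s = 1 := by
    have h := hk n
    rw [hfix] at h
    have h' : s ^ n = 1 := mul_left_cancel (a := m) (by rw [← h, mul_one])
    obtain ⟨j, rfl⟩ := hn
    rwa [pow_succ, pow_mul, pow_two, hexp, one_pow, one_mul] at h'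
  rw [e, hs1, mul_one]

variable {G : Type*} [Group G] [Finite G]

/-- `f` acts on `W/N` as a product of two transvections; then `f^3` acts trivially. -/
theorem trans_cube {N W : Subgroup G}
    (hWN : ∀ w ∈ W, ∀ z ∈ N, cj w z ∈ N) (hsq : ∀ w ∈ W, w * w ∈ N)
    {f : G} {n : ℕ} (hn : Odd n) (hfn : f ^ n = 1)
    (hfW : ∀ w ∈ W, cj f w ∈ W) (hfN : ∀ z ∈ N, cj f z ∈ N) {p q : G} (hp : p ∈ W) (hq : q ∈ W)
    (hS : ∀ w ∈ W, w⁻¹ * cj f w ∈ N ∨ (w * p)⁻¹ * cj f w ∈ N ∨ (w * q)⁻¹ * cj f w ∈ N ∨
      (w * (p * q))⁻¹ * cj f w ∈ N) :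
    ∀ w ∈ W, w⁻¹ * cj (f ^ 3) w ∈ N := by
  have : (N.subgroupOf W).Normal := ⟨fun z hz w => by
    have := hWN w.1 w.2 z.1 hz
    simpa [Subgroup.mem_subgroupOf, cj] using this⟩
  let F : W →* W :=
    { toFun := fun w => ⟨cj f w, hfW w w.2⟩
      map_one' := by ext; simp
      map_mul' := fun a b => by ext; simp [cj_mul'] }
  let φ : W ⧸ N.subgroupOf W →* W ⧸ N.subgroupOf W :=
    QuotientGroup.map _ _ F (fun z hz => hfN z.1 hz)
  have hiter : ∀ (k : ℕ) (w : W), φ^[k] (QuotientGroup.mk w) = QuotientGroup.mk (F^[k] w) := by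
    intro k
    induction k with
    | zero => intro w; simp
    | succ k ih =>
      intro w
      rw [Function.iterate_succ_apply', ih, Function.iterate_succ_apply']
      rfl
  have hF : ∀ (k : ℕ) (w : W), ((F^[k] w : W) : G) = cj (f ^ k) w := by
    intro k
    induction k with
    | zero => intro w; simp
    | succ k ih =>
      intro w
      rw [Function.iterate_succ_apply', pow_succ', cj_mul, ← ih]
      rfl
  have hexp : ∀ m : W ⧸ N.subgroupOf W, m * m = 1 := by
    intro m
    induction m using QuotientGroup.induction_on with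
    | H w =>
      rw [← QuotientGroup.mk_mul, QuotientGroup.eq_one_iff]
      exact hsq w.1 w.2
  have key : ∀ a b : W, (QuotientGroup.mk a : W ⧸ N.subgroupOf W) = QuotientGroup.mk b ↔
      (a : G)⁻¹ * b ∈ N := fun a b => by rw [QuotientGroup.eq]; rfl
  intro w hw
  have h3 := iterate_three_of_odd hexp φ hn
    (fun m => by
      induction m using QuotientGroup.induction_on with
      | H a =>
        rw [hiter]
        congr 1
        exact Subtype.ext (by rw [hF, hfn, cj_one]))
    (QuotientGroup.mk ⟨p, hp⟩) (QuotientGroup.mk ⟨q, hq⟩)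
    (fun m => by
      induction m using QuotientGroup.induction_on with
      | H a =>
        rcases hS a.1 a.2 with h | h | h | h
        · exact Or.inl ((key a (F a)).mpr h).symm
        · exact Or.inr (Or.inl ((key (a * ⟨p, hp⟩) (F a)).mpr h).symm)
        · exact Or.inr (Or.inr (Or.inl ((key (a * ⟨q, hq⟩) (F a)).mpr h).symm))
        · exact Or.inr (Or.inr (Or.inr
            ((key (a * (⟨p, hp⟩ * ⟨q, hq⟩)) (F a)).mpr h).symm)))
    (QuotientGroup.mk ⟨w, hw⟩)
  rw [hiter] at h3
  have := (key _ _).mp h3.symm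
  rwa [hF] at this

end CfsgLib.PushUp.SmallDih
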